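import Cfsg.Agent.H90.SylowBasic

/-! Twenty-two Sylow `3`-subgroups: general facts on the conjugation action. -/

set_option autoImplicit false

namespace Cfsg.Agent.H90.Sylow22

open MulAction

/-- A set on which all orbits have size `m` has cardinality divisible by `m`. -/
theorem dvd_card {H X : Type*} [Group H] [Finite H] [MulAction H X] [Finite X] (S : Set X) (m : ℕ)
    (hinv : ∀ h : H, ∀ x ∈ S, h • x ∈ S) (horb : ∀ x ∈ S, Nat.card (orbit H x) = m) :
    m ∣ Nat.card S := by
  classical
  haveI := Fintype.ofFinite X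
  let f : X → Set X := fun x => orbit H x
  have h := Finset.card_eq_sum_card_image f S.toFinset
  rw [Nat.card_eq_fintype_card, ← Set.toFinset_card, h]
  refine Finset.dvd_sum fun O hO => ?_
  obtain ⟨x, hx, rfl⟩ := Finset.mem_image.mp hO
  rw [Set.mem_toFinset] at hx
  refine dvd_of_eq ?_
  rw [← horb x hx, Nat.card_eq_fintype_card, ← Set.toFinset_card]
  congr 1
  ext y
  simp only [Finset.mem_filter, Set.mem_toFinset, f]
  refine ⟨fun hy => ⟨?_, orbit_eq_iff.mpr hy⟩, fun hy => hy.2 ▸ mem_orbit_self y⟩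
  obtain ⟨g, rfl⟩ := hy
  exact hinv g x hx

/-- An involutory permutation of trivial sign moves a number of points divisible by four. -/
theorem four_dvd_support {α : Type*} [Fintype α] [DecidableEq α] {σ : Equiv.Perm α} (h2 : σ ^ 2 = 1)
    (hs : Equiv.Perm.sign σ = 1) : 4 ∣ σ.support.card := by
  have h := Equiv.Perm.cycleType_of_pow_prime_eq_one (p := 2) h2
  have hsum : σ.support.card = σ.cycleType.card * 2 := by
    conv_lhs => rw [← Equiv.Perm.sum_cycleType, h]
    simp
  rw [Equiv.Perm.sign_of_cycleType, Equiv.Perm.sum_cycleType, hsum] at hs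
  rcases Nat.even_or_odd σ.cycleType.card with ⟨k, hk⟩ | ⟨k, hk⟩
  · rw [hsum, hk]; exact ⟨k, by omega⟩
  · exfalso
    rw [hk, show (2 * k + 1) * 2 + (2 * k + 1) = 2 * (3 * k + 1) + 1 by ring, pow_succ, pow_mul] at hs
    simp at hs

variable {G : Type*} [Group G] [Finite G]

/-- A simple group that is not abelian acts by even permutations. -/
theorem sign_eq_one [IsSimpleGroup G] (hna : ∃ a b : G, a * b ≠ b * a) {α : Type*} [Fintype α]
    [DecidableEq α] [MulAction G α] (g : G) :
    Equiv.Perm.sign (MulAction.toPerm g : Equiv.Perm α) = 1 := by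
  let f : G →* ℤˣ := Equiv.Perm.sign.comp (MulAction.toPermHom G α)
  rcases IsSimpleGroup.eq_bot_or_eq_top_of_normal f.ker inferInstance with h | h
  · obtain ⟨a, b, hab⟩ := hna
    exact absurd ((f.ker_eq_bot_iff.mp h) (by rw [map_mul, map_mul, mul_comm])) hab
  · exact MonoidHom.mem_ker.mp (h.ge (Subgroup.mem_top g))

variable {p : ℕ} [Fact p.Prime]

theorem mem_stab {a : Sylow p G} {g : G} : g ∈ stabilizer G a ↔ g • a = a := Iff.rfl

theorem le_stab (a : Sylow p G) : (a : Subgroup G) ≤ stabilizer G a := by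
  rw [Sylow.stabilizer_eq_normalizer]; exact Subgroup.le_normalizer

/-- A `p`-subgroup fixing a Sylow subgroup lies in it. -/
theorem le_of_le_stab {H : Subgroup G} (hH : IsPGroup p H) {b : Sylow p G} (h : H ≤ stabilizer G b) :
    H ≤ (b : Subgroup G) := by
  have h1 := hH.inf_normalizer_sylow b
  rw [← Sylow.stabilizer_eq_normalizer, inf_eq_left.mpr h] at h1
  exact inf_eq_left.mp h1.symm

theorem eq_of_le_stab {a b : Sylow p G} (h : (a : Subgroup G) ≤ stabilizer G b) : b = a :=
  Sylow.ext (a.is_maximal' b.isPGroup' (le_of_le_stab a.isPGroup' h))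

theorem mem_of_pow_mem {a : Sylow p G} {g : G} (h : g ∈ stabilizer G a) {k : ℕ} (hk : g ^ p ^ k = 1) :
    g ∈ (a : Subgroup G) := by
  refine le_of_le_stab ?_ (Subgroup.zpowers_le.mpr h) (Subgroup.mem_zpowers g)
  obtain ⟨i, -, hi⟩ := (Nat.dvd_prime_pow Fact.out).mp (orderOf_dvd_of_pow_eq_one hk)
  exact IsPGroup.of_card (n := i) (by rw [Nat.card_zpowers, hi])

theorem mem_smul {g x : G} {a : Sylow p G} :
    x ∈ ((g • a : Sylow p G) : Subgroup G) ↔ g⁻¹ * x * g ∈ (a : Subgroup G) := by
  rw [Sylow.coe_subgroup_smul, Subgroup.mem_pointwise_smul_iff_inv_smul_mem]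
  simp

/-- The orbit of `b` under `a` has size the index of `a ⊓ b` in `a`. -/
theorem card_orbit (a b : Sylow p G) :
    Nat.card (orbit (a : Subgroup G) b) = (b : Subgroup G).relIndex (a : Subgroup G) := by
  have h1 : stabilizer (a : Subgroup G) b = (b : Subgroup G).subgroupOf (a : Subgroup G) := by
    ext x
    rw [mem_stabilizer_iff, Subgroup.mem_subgroupOf]
    refine ⟨fun h => ?_, fun h => le_stab b h⟩
    have h1 : (x : G) ∈ stabilizer G b := h
    obtain ⟨k, hk⟩ := a.isPGroup' x
    exact mem_of_pow_mem h1 (k := k) (congrArg Subtype.val hk)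
  rw [Nat.card_coe_set_eq, ← index_stabilizer, h1]; rfl

/-- `|a ⊓ b| * [a : a ⊓ b] = |a|`. -/
theorem card_inf_mul (a b : Sylow p G) :
    Nat.card ((a : Subgroup G) ⊓ b : Subgroup G) * (b : Subgroup G).relIndex (a : Subgroup G) =
      Nat.card (a : Subgroup G) := by
  have h := ((b : Subgroup G).subgroupOf (a : Subgroup G)).card_mul_index
  rw [Nat.card_congr (((b : Subgroup G).subgroupOf (a : Subgroup G)).equivMapOfInjective _
    (a : Subgroup G).subtype_injective).toEquiv, Subgroup.subgroupOf_map_subtype, inf_comm] at h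
  exact h

theorem relIndex_symm (a b : Sylow p G) :
    (b : Subgroup G).relIndex (a : Subgroup G) = (a : Subgroup G).relIndex (b : Subgroup G) := by
  have h1 := card_inf_mul a b
  have h2 := card_inf_mul b a
  rw [inf_comm, Q_card b a, ← h1] at h2
  exact (Nat.eq_of_mul_eq_mul_left Nat.card_pos h2).symm
where
  Q_card (b a : Sylow p G) : Nat.card (b : Subgroup G) = Nat.card (a : Subgroup G) :=
    b.card_eq_multiplicity.trans a.card_eq_multiplicity.symm

theorem smul_inf (g : G) (a b : Sylow p G) :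
    (((g • a : Sylow p G) : Subgroup G) ⊓ (g • b : Sylow p G)) =
      ((a : Subgroup G) ⊓ b).map (MulAut.conj g).toMonoidHom := by
  ext x
  rw [Subgroup.mem_map_equiv, Subgroup.mem_inf, Subgroup.mem_inf, mem_smul, mem_smul,
    MulAut.conj_symm_apply]

theorem relIndex_smul (g : G) (a b : Sylow p G) :
    ((g • b : Sylow p G) : Subgroup G).relIndex (g • a : Sylow p G) =
      (b : Subgroup G).relIndex (a : Subgroup G) := by
  have h1 := card_inf_mul (g • a) (g • b)
  have h2 := card_inf_mul a b
  rw [smul_inf, Subgroup.card_map_of_injective (MulAut.conj g).injective,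
    (g • a).card_eq_multiplicity, ← a.card_eq_multiplicity, ← h2] at h1
  exact Nat.eq_of_mul_eq_mul_left Nat.card_pos h1

end Cfsg.Agent.H90.Sylow22
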