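import Cfsg.Agent.H90.Sylow22.Lines

/-! Twenty-two Sylow `3`-subgroups in a simple group: the elements of order `11`. -/

set_option autoImplicit false
open scoped Classical

namespace Cfsg.Agent.H90.Sylow22

open MulAction

noncomputable section

/-- A permutation of prime order `q` moves at least `q` points. -/
theorem perm_eq_one {α : Type*} [Fintype α] {σ : Equiv.Perm α} {q : ℕ} (hq : q.Prime)
    (h : σ ^ q = 1) (hcard : Fintype.card α < q) : σ = 1 := by
  haveI := Fact.mk hq
  have hsum := Equiv.Perm.sum_cycleType_le σ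
  rw [Equiv.Perm.cycleType_of_pow_prime_eq_one h, Multiset.sum_replicate, smul_eq_mul] at hsum
  rw [← Equiv.Perm.cycleType_eq_zero]
  refine Multiset.card_eq_zero.mp ?_
  by_contra h0
  have := Nat.le_mul_of_pos_left q (Nat.pos_of_ne_zero h0)
  omega

variable {G : Type*} [Group G] [Finite G]

/-- Elements fixing `a` permute the orbits of `a`. -/
theorem smul_orbit {a : Sylow 3 G} {g : G} (hg : g ∈ stabilizer G a) {b c : Sylow 3 G}
    (h : ∃ q ∈ (a : Subgroup G), q • b = c) : ∃ q ∈ (a : Subgroup G), q • g • b = g • c := by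
  obtain ⟨q, hq, rfl⟩ := h
  refine ⟨g * q * g⁻¹, ?_, by rw [← mul_smul, ← mul_smul, inv_mul_cancel_right]⟩
  rw [← mem_stab.mp hg, mem_smul]
  simpa [mul_assoc] using hq

theorem pow_smul_eq {g : G} {b : Sylow 3 G} (h : g • b = b) (n : ℕ) : g ^ n • b = b := by
  induction n with
  | zero => simp
  | succ n ih => rw [pow_succ, mul_smul, h, ih]

/-- The fixed points of `g`. -/
def fixes (g : G) : Finset (Sylow 3 G) := Finset.univ.filter fun c => g • c = c

@[simp] theorem mem_fixes {g : G} {c : Sylow 3 G} : c ∈ fixes g ↔ g • c = c := by simp [fixes]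

theorem eq_one_of_fix_all [IsSimpleGroup G] (hn : Nat.card (Sylow 3 G) = 22) {g : G}
    (h : ∀ c : Sylow 3 G, g • c = c) : g = 1 := by
  let f := MulAction.toPermHom G (Sylow 3 G)
  have hg : g ∈ f.ker := Equiv.ext h
  rcases IsSimpleGroup.eq_bot_or_eq_top_of_normal f.ker inferInstance with e | e
  · exact Subgroup.mem_bot.mp (e ▸ hg)
  · exfalso
    haveI : Subsingleton (Sylow 3 G) := ⟨fun c d => by
      obtain ⟨x, rfl⟩ := exists_smul_eq G c d
      exact (Equiv.congr_fun (MonoidHom.mem_ker.mp (e.ge (Subgroup.mem_top x))) c).symm⟩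
    rw [Nat.card_of_subsingleton (default : Sylow 3 G)] at hn
    omega

theorem nonabelian [IsSimpleGroup G] (hn : Nat.card (Sylow 3 G) = 22) : ∃ a b : G, a * b ≠ b * a := by
  by_contra h
  simp only [not_exists, not_not] at h
  have : ∀ P : Sylow 3 G, (P : Subgroup G).Normal := fun P => ⟨fun x hx g => by
    rw [h g x, mul_inv_cancel_right]; exact hx⟩
  obtain ⟨P⟩ := (Sylow.nonempty : Nonempty (Sylow 3 G))
  haveI : Subsingleton (Sylow 3 G) := ⟨fun c d => by
    obtain ⟨g, rfl⟩ := exists_smul_eq G c d
    haveI := this c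
    exact Sylow.smul_eq_of_normal.symm⟩
  rw [Nat.card_of_subsingleton P] at hn
  omega

theorem four_dvd_moved [IsSimpleGroup G] (hn : Nat.card (Sylow 3 G) = 22) {g : G} (h2 : g ^ 2 = 1) :
    4 ∣ 22 - (fixes g).card := by
  have h := four_dvd_support (σ := (MulAction.toPerm g : Equiv.Perm (Sylow 3 G)))
    (by rw [← MulAction.toPermHom_apply, ← map_pow, h2, map_one])
    (sign_eq_one (nonabelian hn) g)
  have he : (MulAction.toPerm g : Equiv.Perm (Sylow 3 G)).support = (fixes g)ᶜ := by
    ext c; simp [fixes]
  rwa [he, Finset.card_compl, ← Nat.card_eq_fintype_card, hn] at h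

/-- An element whose eleventh power is `1` and which fixes a point is trivial. -/
theorem eq_one_of_pow_eleven [IsSimpleGroup G] (hn : Nat.card (Sylow 3 G) = 22) {g : G}
    (h11 : g ^ 11 = 1) {a : Sylow 3 G} (hg : g • a = a) : g = 1 := by
  refine eq_one_of_fix_all hn fun b => ?_
  by_cases hba : b = a
  · rw [hba, hg]
  let s := orbitRel (a : Subgroup G) (Sylow 3 G)
  let Cl := Quotient s
  haveI : Fintype Cl := Fintype.ofFinite _
  let φ : Cl → Cl := Quotient.map (g • ·) fun c d hcd => by
    obtain ⟨⟨q, hq⟩, hqe⟩ := hcd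
    obtain ⟨q', hq', he⟩ := smul_orbit (mem_stab.mpr hg) ⟨q, hq, hqe⟩
    exact ⟨⟨q', hq'⟩, he⟩
  have hcard : Fintype.card Cl ≤ 8 := by
    have h1 : ∀ x ∈ (Finset.univ : Finset Cl).erase (Quotient.mk s a),
        3 ≤ (Finset.univ.filter fun c : Sylow 3 G => Quotient.mk s c = x).card := by
      intro x hx
      induction x using Quotient.inductionOn with
      | _ c =>
        rw [Finset.mem_erase] at hx
        have hca : c ≠ a := fun e => hx.1 (by rw [e])
        have h3 : 3 ≤ Nat.card (orbit (a : Subgroup G) c) := by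
          rw [card_orbit]; rcases typ_cases hn hca with e | e <;> (change 3 ≤ typ a c; omega)
        refine h3.trans (le_of_eq ?_)
        rw [Nat.card_eq_fintype_card, ← Set.toFinset_card]
        congr 1
        ext d
        simp only [Set.mem_toFinset, Finset.mem_filter, Finset.mem_univ, true_and]
        exact ⟨fun h => Quotient.sound h, fun h => Quotient.exact h⟩
    have h2 : ∀ x : Cl, 1 ≤ (Finset.univ.filter fun c : Sylow 3 G => Quotient.mk s c = x).card := fun x => by
      induction x using Quotient.inductionOn with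
      | _ c => exact Finset.card_pos.mpr ⟨c, Finset.mem_filter.mpr ⟨Finset.mem_univ _, rfl⟩⟩
    have h3 := Finset.card_eq_sum_card_fiberwise (f := fun c : Sylow 3 G => Quotient.mk s c)
      (s := Finset.univ) (t := (Finset.univ : Finset Cl)) fun _ _ => Finset.mem_univ _
    rw [Finset.card_univ, ← Nat.card_eq_fintype_card, hn,
      ← Finset.sum_erase_add _ _ (Finset.mem_univ (Quotient.mk s a : Cl))] at h3
    have h4 := Finset.card_nsmul_le_sum _ _ 3 h1
    rw [smul_eq_mul, Finset.card_erase_of_mem (Finset.mem_univ _), Finset.card_univ] at h4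
    have h5 := h2 (Quotient.mk s a)
    have h6 : (Fintype.card Cl - 1) * 3 + 1 ≤ 22 := by
      rw [h3]
      refine Nat.add_le_add ?_ ?_
      · convert h4 using 3
      · convert h5 using 2
    omega
  have hiter : ∀ n : ℕ, φ^[n] (Quotient.mk s b) = Quotient.mk s (g ^ n • b) := by
    intro n
    induction n with
    | zero => simp
    | succ n ih => rw [Function.iterate_succ_apply', ih, pow_succ', mul_smul]; rfl
  have hφinj : Function.Injective φ := by
    intro x y
    induction x using Quotient.inductionOn with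
    | _ c =>
      induction y using Quotient.inductionOn with
      | _ d =>
        intro h
        obtain ⟨⟨q, hq⟩, hqe⟩ := Quotient.exact h
        obtain ⟨q', hq', he⟩ := smul_orbit (inv_mem (mem_stab.mpr hg)) ⟨q, hq, hqe⟩
        simp only [inv_smul_smul] at he
        exact Quotient.sound ⟨⟨q', hq'⟩, he⟩
  let σ : Equiv.Perm Cl := Equiv.ofBijective φ (Finite.injective_iff_bijective.mp hφinj)
  have hσ : σ ^ 11 = 1 := Equiv.ext fun x => by
    induction x using Quotient.inductionOn with
    | _ c =>
      rw [← Equiv.Perm.iterate_eq_pow]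
      change φ^[11] _ = _
      have : ∀ n : ℕ, φ^[n] (Quotient.mk s c) = Quotient.mk s (g ^ n • c) := by
        intro n
        induction n with
        | zero => simp
        | succ n ih => rw [Function.iterate_succ_apply', ih, pow_succ', mul_smul]; rfl
      rw [this, h11, one_smul]; rfl
  have hσ1 : σ = 1 := perm_eq_one (by norm_num) hσ (by omega)
  -- `g` preserves each orbit
  let O := {c : Sylow 3 G // Quotient.mk s c = Quotient.mk s b}
  let τ : Equiv.Perm O := (MulAction.toPerm g : Equiv.Perm (Sylow 3 G)).subtypePerm fun c => by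
    have h1 : Quotient.mk s (g • c) = Quotient.mk s c := Equiv.congr_fun hσ1 (Quotient.mk s c)
    change Quotient.mk s (g • c) = _ ↔ _
    rw [h1]
  have hτ : τ ^ 11 = 1 := by
    refine Equiv.ext fun c => Subtype.ext ?_
    rw [Equiv.Perm.subtypePerm_pow]
    change ((MulAction.toPermHom G (Sylow 3 G) g) ^ 11) (c : Sylow 3 G) = c
    rw [← map_pow, h11, map_one]; rfl
  have hO : Fintype.card O < 11 := by
    have : Fintype.card O = Nat.card (orbit (a : Subgroup G) b) := by
      rw [← Nat.card_eq_fintype_card]
      exact Nat.card_congr (Equiv.subtypeEquivRight fun c => Quotient.eq)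
    rw [this, card_orbit]
    change typ a b < 11
    rcases typ_cases hn hba with e | e <;> omega
  have := perm_eq_one (by norm_num) hτ hO
  exact congrArg Subtype.val (Equiv.congr_fun this ⟨b, rfl⟩)

/-- An involution with exactly two fixed points, and the order of a stabiliser modulo `11`. -/
theorem eleven_data [IsSimpleGroup G] (hn : Nat.card (Sylow 3 G) = 22) :
    (∀ a : Sylow 3 G, Nat.card (stabilizer G a) ≡ 1 [MOD 11]) ∧
    (∃ (t : G) (a b : Sylow 3 G), b ≠ a ∧ t ^ 2 = 1 ∧ fixes t = {a, b}) ∧
    ∀ a : Sylow 3 G, Nat.card G = 22 * Nat.card (stabilizer G a) := by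
  haveI h11 : Fact (Nat.Prime 11) := ⟨by norm_num⟩
  have hGa : ∀ a : Sylow 3 G, Nat.card G = 22 * Nat.card (stabilizer G a) := by
    intro a
    rw [← (stabilizer G a).index_mul_card, Sylow.stabilizer_eq_normalizer, ← a.card_eq_index_normalizer, hn]
  obtain ⟨a₀⟩ := (Sylow.nonempty : Nonempty (Sylow 3 G))
  obtain ⟨r, hr⟩ := exists_prime_orderOf_dvd_card' (G := G) 11
    (by rw [hGa a₀]; exact Dvd.dvd.mul_right (by norm_num) _)
  have hr11 : r ^ 11 = 1 := by rw [← hr]; exact pow_orderOf_eq_one r
  have hr1 : r ≠ 1 := fun e => by rw [e, orderOf_one] at hr; omega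
  set R := Subgroup.zpowers r with hRdef
  have hRcard : Nat.card R = 11 := by rw [Nat.card_zpowers, hr]
  have hfree : ∀ x ∈ R, ∀ c : Sylow 3 G, x • c = c → x = 1 := by
    intro x hx c hc
    refine eq_one_of_pow_eleven hn ?_ hc
    obtain ⟨i, rfl⟩ := Subgroup.mem_zpowers_iff.mp hx
    rw [← zpow_natCast, zpow_comm, zpow_natCast, hr11, one_zpow]
  have horb : ∀ c : Sylow 3 G, Nat.card (orbit R c) = 11 := by
    intro c
    have : stabilizer R c = ⊥ := eq_bot_iff.mpr fun x hx => Subgroup.mem_bot.mpr
      (Subtype.ext (hfree x x.2 c hx))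
    rw [Nat.card_coe_set_eq, ← index_stabilizer, this, Subgroup.index_bot, hRcard]
  -- Sylow eleven
  have hsyl : ∀ S : Sylow 11 G, Nat.card (S : Subgroup G) = 11 := by
    intro S
    have hfreeS : stabilizer (S : Subgroup G) a₀ = ⊥ := by
      by_contra hne
      haveI := (Subgroup.nontrivial_iff_ne_bot _).mpr hne
      obtain ⟨x, hx⟩ := exists_prime_orderOf_dvd_card' (G := stabilizer (S : Subgroup G) a₀) 11 (by
        obtain ⟨k, hk⟩ := IsPGroup.iff_card.mp (S.isPGroup'.to_subgroup (stabilizer (S : Subgroup G) a₀))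
        rw [hk]
        refine dvd_pow_self _ fun e => ?_
        rw [e, pow_zero] at hk
        exact absurd hk Finite.one_lt_card.ne')
      have h1 : ((x : (S : Subgroup G)) : G) ^ 11 = 1 := by
        have := pow_orderOf_eq_one x
        rw [hx] at this
        exact congrArg (fun z : stabilizer (S : Subgroup G) a₀ => ((z : (S : Subgroup G)) : G)) this
      have h2 := eq_one_of_pow_eleven hn h1 (a := a₀) x.2
      rw [show x = 1 from Subtype.ext (Subtype.ext h2), orderOf_one] at hx
      omega
    have hle : Nat.card (S : Subgroup G) ≤ 22 := by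
      rw [← Subgroup.index_bot (G := (S : Subgroup G)), ← hfreeS, index_stabilizer, ← hn,
        ← Nat.card_coe_set_eq]
      exact Nat.card_le_card_of_injective _ Subtype.val_injective
    obtain ⟨k, hk⟩ := IsPGroup.iff_card.mp S.isPGroup'
    rcases k with _ | _ | k
    · exfalso
      have h1 : 11 ∣ Nat.card G := hr ▸ orderOf_dvd_natCard r
      rw [← (S : Subgroup G).index_mul_card, hk, pow_zero, mul_one] at h1
      exact S.not_dvd_index h1
    · simpa using hk
    · exfalso
      have : 11 ^ 2 ≤ 11 ^ (k + 1 + 1) := Nat.pow_le_pow_right (by norm_num) (by omega)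
      rw [hk] at hle
      norm_num at this
      omega
  obtain ⟨S, hS⟩ := (IsPGroup.of_card (n := 1) (by rw [hRcard, pow_one]) : IsPGroup 11 R).exists_le_sylow
  have hSR : (S : Subgroup G) = R := (Subgroup.eq_of_le_of_card_ge hS (by rw [hRcard, hsyl S])).symm
  -- the centraliser of `r`
  set C := Subgroup.centralizer (R : Set G) with hC
  have hCmem : ∀ x ∈ C, ∀ i : ℤ, Commute x (r ^ i) := fun x hx i =>
    (Subgroup.mem_centralizer_iff.mp hx (r ^ i) (Subgroup.zpow_mem_zpowers r i)).symm
  have hCfree : ∀ x ∈ C, ∀ c : Sylow 3 G, x • c = c → x = 1 := by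
    intro x hx c hc
    refine eq_one_of_pow_eleven hn (eq_one_of_fix_all hn fun d => ?_) hc
    have hO : ∀ e ∈ orbit R c, x • e = e := by
      rintro _ ⟨⟨y, hy⟩, rfl⟩
      obtain ⟨i, rfl⟩ := Subgroup.mem_zpowers_iff.mp hy
      change x • r ^ i • c = r ^ i • c
      rw [← mul_smul, (hCmem x hx i).eq, mul_smul, hc]
    by_cases hd : d ∈ orbit R c
    · exact pow_smul_eq (hO d hd) 11
    have hd' : x • d ∈ orbit R d := by
      by_contra hxd
      have hxc : x • d ∉ orbit R c := fun h => hd (by
        have := hO _ h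
        rwa [MulAction.injective x this] at h)
      have hdisj : ∀ e ∈ orbit R d, e ∉ orbit R c := fun e he hec => hd (by
        rw [← orbit_eq_iff] at he hec
        rw [← orbit_eq_iff, ← he, hec])
      let U : Finset (Sylow 3 G) := (orbit R c).toFinset ∪ (orbit R d).toFinset
      have hU : U.card = 22 := by
        rw [Finset.card_union_of_disjoint (Finset.disjoint_left.mpr fun e h1 h2 => by
          rw [Set.mem_toFinset] at h1 h2; exact hdisj e h2 h1), Set.toFinset_card, Set.toFinset_card,
          ← Nat.card_eq_fintype_card, ← Nat.card_eq_fintype_card, horb, horb]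
      have : x • d ∈ U := by
        rw [Finset.eq_univ_of_card U (by rw [hU, ← Nat.card_eq_fintype_card, hn])]
        exact Finset.mem_univ _
      rw [Finset.mem_union, Set.mem_toFinset, Set.mem_toFinset] at this
      exact this.elim hxc hxd
    obtain ⟨⟨y, hy⟩, hxy⟩ := hd'
    change y • d = x • d at hxy
    have hpow : ∀ n : ℕ, x ^ n • d = y ^ n • d := by
      intro n
      obtain ⟨i, rfl⟩ := Subgroup.mem_zpowers_iff.mp hy
      induction n with
      | zero => simp
      | succ n ih =>
        rw [pow_succ', mul_smul, ih, ← mul_smul, ((hCmem x hx i).pow_right n).eq, mul_smul, ← hxy,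
          ← mul_smul, ← pow_succ]
    rw [hpow]
    obtain ⟨i, rfl⟩ := Subgroup.mem_zpowers_iff.mp hy
    rw [← zpow_natCast, zpow_comm, zpow_natCast, hr11, one_zpow, one_smul]
  have hRC : R ≤ C := fun x hx => Subgroup.mem_centralizer_iff.mpr fun y hy => by
    obtain ⟨i, rfl⟩ := Subgroup.mem_zpowers_iff.mp hx
    obtain ⟨j, rfl⟩ := Subgroup.mem_zpowers_iff.mp hy
    exact ((Commute.refl r).zpow_zpow j i).eq
  have hCcard : Nat.card C = 11 := by
    have hstab : stabilizer C a₀ = ⊥ := eq_bot_iff.mpr fun x hx => Subgroup.mem_bot.mpr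
      (Subtype.ext (hCfree x x.2 a₀ hx))
    have hle : Nat.card C ≤ 22 := by
      rw [← Subgroup.index_bot (G := C), ← hstab, index_stabilizer, ← hn, ← Nat.card_coe_set_eq]
      exact Nat.card_le_card_of_injective _ Subtype.val_injective
    obtain ⟨k, hk⟩ : 11 ∣ Nat.card C := hRcard ▸ Subgroup.card_dvd_of_le hRC
    have hpos : 0 < Nat.card C := Nat.card_pos
    by_contra hne
    have hk2 : Nat.card C = 22 := by omega
    haveI := Fact.mk Nat.prime_two
    obtain ⟨x, hx⟩ := exists_prime_orderOf_dvd_card' (G := C) 2 (by rw [hk2]; norm_num)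
    have hx2 : (x : G) ^ 2 = 1 := by rw [← SubgroupClass.coe_pow, ← hx, pow_orderOf_eq_one]; rfl
    have hfix : fixes (x : G) = ∅ := Finset.eq_empty_of_forall_notMem fun c hc => by
      have := hCfree x x.2 c (mem_fixes.mp hc)
      rw [show x = 1 from Subtype.ext this, orderOf_one] at hx
      omega
    have := four_dvd_moved hn hx2
    rw [hfix, Finset.card_empty] at this
    omega
  have hCR : C = R := (Subgroup.eq_of_le_of_card_ge hRC (by rw [hRcard, hCcard])).symm
  -- the normaliser
  set N := Subgroup.normalizer (R : Set G) with hNdef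
  let f : N →* MulAut R :=
    { toFun := fun g => (MulAut.conjNormal (H := R.subgroupOf N) g) |> fun e =>
        ((Subgroup.subgroupOfEquivOfLe (Subgroup.le_normalizer : R ≤ N)).symm.trans e).trans
          (Subgroup.subgroupOfEquivOfLe (Subgroup.le_normalizer : R ≤ N))
      map_one' := by ext; simp
      map_mul' := fun g h => by ext; simp [mul_assoc] }
  have hfker : ∀ g : N, f g = 1 → (g : G) ∈ C := by
    intro g hg
    refine Subgroup.mem_centralizer_iff.mpr fun y hy => ?_
    have h1 := congrArg Subtype.val (MulEquiv.congr_fun hg ⟨y, hy⟩)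
    simp [f, MulAut.conjNormal_apply] at h1
    exact (mul_inv_eq_iff_eq_mul.mp h1).symm
  have hcardAut : Nat.card (MulAut R) = 10 := by
    haveI : IsCyclic R := isCyclic_of_prime_card hRcard
    rw [IsCyclic.card_mulAut, hRcard, Nat.totient_prime h11.out]
  have hkerf : f.ker.map N.subtype = R := by
    refine le_antisymm ?_ fun y hy => ?_
    · rintro _ ⟨g, hg, rfl⟩
      exact hCR.le (hfker g hg)
    · refine ⟨⟨y, Subgroup.le_normalizer hy⟩, MulEquiv.ext fun z => Subtype.ext ?_, rfl⟩
      obtain ⟨i, rfl⟩ := Subgroup.mem_zpowers_iff.mp hy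
      obtain ⟨z, hz⟩ := z
      obtain ⟨j, rfl⟩ := Subgroup.mem_zpowers_iff.mp hz
      simp [f, MulAut.conjNormal_apply]
      rw [← zpow_neg, ← zpow_add, ← zpow_add]
      congr 1; ring
  obtain ⟨d, hd, hNcard⟩ : ∃ d, d ∣ 10 ∧ Nat.card N = 11 * d := by
    refine ⟨Nat.card f.range, hcardAut ▸ Subgroup.card_subgroup_dvd_card _, ?_⟩
    rw [← f.ker.card_mul_index, Subgroup.index_ker]
    congr 1
    rw [Nat.card_congr (f.ker.equivMapOfInjective N.subtype N.subtype_injective).toEquiv, hkerf, hRcard]
  have hd1 : d ≠ 1 := by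
    rintro rfl
    have hNR : N ≤ C := by
      rw [hCR]
      exact (Subgroup.eq_of_le_of_card_ge Subgroup.le_normalizer (by rw [hNcard, hRcard])).ge
    have hP : Subgroup.normalizer ((S : Subgroup G) : Set G) ≤ Subgroup.centralizer (S : Set G) := by
      change Subgroup.normalizer ((S : Subgroup G) : Set G) ≤ Subgroup.centralizer ((S : Subgroup G) : Set G)
      rw [hSR]; exact hNR
    have hc := MonoidHom.ker_transferSylow_isComplement' S hP
    rcases IsSimpleGroup.eq_bot_or_eq_top_of_normal (MonoidHom.transferSylow S hP).ker inferInstance with e | e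
    · rw [e, Subgroup.isComplement'_bot_left] at hc
      have := hsyl S
      rw [hc, Subgroup.card_top, hGa a₀] at this
      omega
    · rw [e, Subgroup.isComplement'_top_left] at hc
      have := hsyl S
      rw [hc, Subgroup.card_bot] at this
      omega
  -- elements of prime order outside `R` fix two points
  have hfix2 : ∀ q : ℕ, q.Prime → q ∣ d → ∀ y : G, y ∈ N → orderOf y = q → (fixes y).card = 2 := by
    intro q hq hqd y hy hyo
    have hq10 : q ∣ 10 := hqd.trans hd
    have hq' : q = 2 ∨ q = 5 := by
      have : q ≤ 10 := Nat.le_of_dvd (by norm_num) hq10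
      revert hq hq10; clear hqd hyo; interval_cases q <;> intro hq hq10 <;> first | omega | (norm_num at hq)
    have hyC : y ∉ C := fun h => by
      rw [hCR] at h
      have h' : y ^ 11 = 1 := by
        obtain ⟨i, rfl⟩ := Subgroup.mem_zpowers_iff.mp h
        rw [← zpow_natCast, zpow_comm, zpow_natCast, hr11, one_zpow]
      have := orderOf_dvd_of_pow_eq_one h'
      rw [hyo, Nat.dvd_prime h11.out] at this
      have := hq.two_le
      omega
    -- at most one fixed point in each orbit of `R`
    have hle : (fixes y).card ≤ 2 := by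
      let fR : Sylow 3 G → Set (Sylow 3 G) := fun c => orbit R c
      have hinj : Set.InjOn fR (fixes y) := by
        intro c hc e he hce
        rw [Finset.mem_coe, mem_fixes] at hc he
        obtain ⟨⟨x, hx⟩, rfl⟩ : e ∈ orbit R c := by
          change orbit R c = orbit R e at hce
          rw [hce]; exact mem_orbit_self e
        change y • x • c = x • c at he
        have h1 : (y * x * y⁻¹) • c = x • c := by
          rw [mul_smul, mul_smul, inv_smul_eq_iff.mpr hc.symm, he]
        have hxy : y * x * y⁻¹ ∈ R := (Subgroup.mem_normalizer_iff.mp hy x).mp hx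
        have h2 : x⁻¹ * (y * x * y⁻¹) = 1 := hfree _ (mul_mem (inv_mem hx) hxy) c (by
          rw [mul_smul, h1, inv_smul_smul])
        by_cases hx1 : x = 1
        · subst hx1; exact (one_smul G c).symm
        exfalso
        refine hyC (Subgroup.mem_centralizer_iff.mpr fun z hz => ?_)
        have hcomm : Commute y x := mul_inv_eq_iff_eq_mul.mp (inv_mul_eq_one.mp h2).symm
        have hgen : Subgroup.zpowers x = R := Subgroup.eq_of_le_of_card_ge (Subgroup.zpowers_le.mpr hx) (by
          rw [hRcard, Nat.card_zpowers]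
          have h3 := Subgroup.orderOf_dvd_natCard R hx
          rw [hRcard] at h3
          rcases (Nat.dvd_prime h11.out).mp h3 with e | e
          · exact absurd (orderOf_eq_one_iff.mp e) hx1
          · exact e.ge)
        obtain ⟨i, rfl⟩ := Subgroup.mem_zpowers_iff.mp (hgen.ge hz)
        exact (hcomm.zpow_right i).eq.symm
      have himg : ((fixes y).image fR).card ≤ 2 := by
        have hd := Finset.card_eq_sum_card_image fR (Finset.univ : Finset (Sylow 3 G))
        rw [Finset.card_univ, ← Nat.card_eq_fintype_card, hn, Finset.sum_const_nat (m := 11)] at hd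
        · have h5 := Finset.card_le_card (Finset.image_subset_image (f := fR) (Finset.subset_univ (fixes y)))
          omega
        intro O hO
        obtain ⟨c, -, rfl⟩ := Finset.mem_image.mp hO
        rw [← horb c, Nat.card_eq_fintype_card, ← Set.toFinset_card]
        congr 1
        ext e
        simp only [Finset.mem_filter, Finset.mem_univ, true_and, Set.mem_toFinset, fR]
        exact orbit_eq_iff
      rwa [Finset.card_image_of_injOn hinj] at himg
    rcases hq' with rfl | rfl
    · have h := four_dvd_moved hn (g := y) (by rw [← hyo]; exact pow_orderOf_eq_one y)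
      omega
    · haveI := Fact.mk hq
      have h5 : (MulAction.toPerm y : Equiv.Perm (Sylow 3 G)) ^ 5 ^ 1 = 1 := by
        rw [pow_one, ← MulAction.toPermHom_apply, ← map_pow, ← hyo, pow_orderOf_eq_one, map_one]
      have h6 := Equiv.Perm.card_compl_support_modEq h5
      rw [show (MulAction.toPerm y : Equiv.Perm (Sylow 3 G)).supportᶜ = fixes y by ext c; simp [fixes],
        ← Nat.card_eq_fintype_card, hn, Nat.ModEq] at h6
      omega
  have h5d : ¬ 5 ∣ d := by
    intro h5
    haveI := Fact.mk (by norm_num : Nat.Prime 5)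
    obtain ⟨y, hy⟩ := exists_prime_orderOf_dvd_card' (G := N) 5 (by rw [hNcard]; exact h5.mul_left 11)
    rw [← Subgroup.orderOf_coe] at hy
    have h2 := hfix2 5 (by norm_num) h5 (y : G) y.2 hy
    obtain ⟨a, b, hab, heq⟩ := Finset.card_eq_two.mp h2
    have hya : (y : G) • a = a := mem_fixes.mp (heq ▸ Finset.mem_insert_self a {b})
    have hy5 : (y : G) ^ 5 = 1 := by rw [← hy]; exact pow_orderOf_eq_one _
    -- a fixed point of type three
    let X := {c : Sylow 3 G // c ∈ T 3 a}
    let σ : Equiv.Perm X := (MulAction.toPerm (y : G) : Equiv.Perm (Sylow 3 G)).subtypePerm fun c => by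
      rw [mem_T, mem_T]
      change typ a ((y : G) • c) = 3 ↔ _
      conv_lhs => rw [← hya, typ_smul]
    have hσ : σ ^ 5 ^ 1 = 1 := by
      refine Equiv.ext fun c => Subtype.ext ?_
      rw [Equiv.Perm.subtypePerm_pow]
      change ((MulAction.toPermHom G (Sylow 3 G) (y : G)) ^ 5 ^ 1) (c : Sylow 3 G) = c
      rw [pow_one, ← map_pow, hy5, map_one]; rfl
    have hX : ¬ 5 ∣ Fintype.card X := by
      rw [Fintype.card_coe]
      have h1 := card_T_add hn a
      have h2 := dvd_card_T 3 a
      have h3 := dvd_card_T 9 a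
      omega
    obtain ⟨⟨c, hc⟩, hfc⟩ := Equiv.Perm.exists_fixed_point_of_prime hX hσ
    have hyc : (y : G) • c = c := congrArg Subtype.val hfc
    rw [mem_T] at hc
    -- the orbit of `c` under `a` is fixed pointwise
    let O := {e : Sylow 3 G // e ∈ orbit (a : Subgroup G) c}
    let τ : Equiv.Perm O := (MulAction.toPerm (y : G) : Equiv.Perm (Sylow 3 G)).subtypePerm fun e => by
      refine ⟨fun he => ?_, fun he => ?_⟩
      · obtain ⟨⟨q, hq⟩, hqe⟩ := he
        obtain ⟨q', hq', h'⟩ := smul_orbit (inv_mem (mem_stab.mpr hya)) ⟨q, hq, hqe⟩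
        rw [inv_smul_eq_iff.mpr hyc.symm] at h'
        exact ⟨⟨q', hq'⟩, h'.trans (inv_smul_smul (y : G) e)⟩
      · obtain ⟨⟨q, hq⟩, hqe⟩ := he
        obtain ⟨q', hq', h'⟩ := smul_orbit (mem_stab.mpr hya) ⟨q, hq, hqe⟩
        rw [hyc] at h'
        exact ⟨⟨q', hq'⟩, h'⟩
    have hO : Fintype.card O = 3 := by
      rw [← Nat.card_eq_fintype_card]
      exact (card_orbit a c).trans hc
    have hτ : τ ^ 5 = 1 := by
      refine Equiv.ext fun e => Subtype.ext ?_
      rw [Equiv.Perm.subtypePerm_pow]
      change ((MulAction.toPermHom G (Sylow 3 G) (y : G)) ^ 5) (e : Sylow 3 G) = e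
      rw [← map_pow, hy5, map_one]; rfl
    have hτ1 := perm_eq_one (by norm_num) hτ (by omega)
    have hsub : (Finset.univ : Finset O).map (Function.Embedding.subtype _) ⊆ fixes (y : G) := by
      intro e he
      obtain ⟨e', -, rfl⟩ := Finset.mem_map.mp he
      exact mem_fixes.mpr (congrArg Subtype.val (Equiv.congr_fun hτ1 e'))
    have := Finset.card_le_card hsub
    rw [Finset.card_map, Finset.card_univ, hO, h2] at this
    omega
  have hd2 : d = 2 := by
    have : d ≤ 10 := Nat.le_of_dvd (by norm_num) hd
    interval_cases d <;> omega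
  subst hd2
  refine ⟨fun a => ?_, ?_, hGa⟩
  · have h1 := card_sylow_modEq_one 11 G
    rw [S.card_eq_index_normalizer] at h1
    have h2 := (Subgroup.normalizer ((S : Subgroup G) : Set G)).index_mul_card
    rw [hSR, ← hNdef, hNcard, hGa a] at h2
    have h3 : (Subgroup.normalizer (S : Set G)).index = Nat.card (stabilizer G a) := by
      change (Subgroup.normalizer ((S : Subgroup G) : Set G)).index = _
      rw [hSR, ← hNdef]; omega
    rwa [h3] at h1
  · haveI := Fact.mk Nat.prime_two
    obtain ⟨y, hy⟩ := exists_prime_orderOf_dvd_card' (G := N) 2 (by rw [hNcard]; norm_num)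
    rw [← Subgroup.orderOf_coe] at hy
    obtain ⟨a, b, hab, heq⟩ := Finset.card_eq_two.mp (hfix2 2 Nat.prime_two dvd_rfl (y : G) y.2 hy)
    exact ⟨(y : G), a, b, Ne.symm hab, by rw [← hy]; exact pow_orderOf_eq_one _, heq⟩

end

end Cfsg.Agent.H90.Sylow22
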