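import Cfsg.Agent.H90.Sylow22.Basic
import Cfsg.Agent.H90.Brodkey

/-! Twenty-two Sylow `3`-subgroups: intersections of two Sylow subgroups. -/

set_option autoImplicit false
open scoped Classical

namespace Cfsg.Agent.H90.Sylow22

open MulAction

noncomputable section

variable {G : Type*} [Group G] [Finite G]

instance instFintypeSylow : Fintype (Sylow 3 G) := Fintype.ofFinite _

instance instFintypeSubgroup : Fintype (Subgroup G) := Fintype.ofFinite _

/-- Conjugation of a subgroup. -/
def cj (g : G) (K : Subgroup G) : Subgroup G := K.map (MulAut.conj g).toMonoidHom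

theorem mem_cj {g x : G} {K : Subgroup G} : x ∈ cj g K ↔ g⁻¹ * x * g ∈ K := by
  rw [cj, Subgroup.mem_map_equiv, MulAut.conj_symm_apply]

theorem cj_le_smul {g : G} {K : Subgroup G} {a : Sylow 3 G} :
    cj g K ≤ ((g • a : Sylow 3 G) : Subgroup G) ↔ K ≤ (a : Subgroup G) := by
  refine ⟨fun h x hx => ?_, fun h x hx => mem_smul.mpr (h (mem_cj.mp hx))⟩
  have := mem_smul.mp (h (show g * x * g⁻¹ ∈ cj g K from mem_cj.mpr (by simpa [mul_assoc] using hx)))
  simpa [mul_assoc] using this

theorem cj_mul (g h : G) (K : Subgroup G) : cj g (cj h K) = cj (g * h) K := by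
  ext x
  simp [mem_cj, mul_assoc]

theorem cj_one (K : Subgroup G) : cj 1 K = K := by ext x; simp [mem_cj]

theorem card_cj (g : G) (K : Subgroup G) : Nat.card (cj g K) = Nat.card K :=
  Subgroup.card_map_of_injective (MulAut.conj g).injective

theorem cj_eq_of_mem {g : G} {K : Subgroup G} (h : g ∈ Subgroup.normalizer (K : Set G)) : cj g K = K := by
  ext x
  rw [mem_cj]
  exact (Subgroup.mem_normalizer_iff''.mp h x).symm

theorem mem_normalizer_of_cj {g : G} {K : Subgroup G} (h : cj g K = K) :
    g ∈ Subgroup.normalizer (K : Set G) := by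
  rw [Subgroup.mem_normalizer_iff'']
  intro x
  conv_lhs => rw [← h, mem_cj]

theorem smul_inf' (g : G) (a b : Sylow 3 G) :
    (((g • a : Sylow 3 G) : Subgroup G) ⊓ (g • b : Sylow 3 G)) = cj g ((a : Subgroup G) ⊓ b) :=
  smul_inf g a b

/-- The type of a pair of Sylow subgroups. -/
def typ (a b : Sylow 3 G) : ℕ := (b : Subgroup G).relIndex (a : Subgroup G)

/-- The subgroups through which `a` meets others in index `3`. -/
def IsLine (K : Subgroup G) : Prop := ∃ a b : Sylow 3 G, typ a b = 3 ∧ (a : Subgroup G) ⊓ b = K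

/-- The Sylow subgroups containing `K`. -/
def fs (K : Subgroup G) : Finset (Sylow 3 G) := Finset.univ.filter fun c => K ≤ (c : Subgroup G)

/-- The partners of type `i`. -/
def T (i : ℕ) (a : Sylow 3 G) : Finset (Sylow 3 G) := Finset.univ.filter fun b => typ a b = i

/-- The lines at `a`. -/
def linesAt (a : Sylow 3 G) : Finset (Subgroup G) :=
  Finset.univ.filter fun K => IsLine K ∧ K ≤ (a : Subgroup G)

@[simp] theorem mem_fs {K : Subgroup G} {c : Sylow 3 G} : c ∈ fs K ↔ K ≤ (c : Subgroup G) := by simp [fs]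

@[simp] theorem mem_T {i : ℕ} {a b : Sylow 3 G} : b ∈ T i a ↔ typ a b = i := by simp [T]

@[simp] theorem mem_linesAt {K : Subgroup G} {a : Sylow 3 G} :
    K ∈ linesAt a ↔ IsLine K ∧ K ≤ (a : Subgroup G) := by simp [linesAt]

theorem typ_symm (a b : Sylow 3 G) : typ a b = typ b a := relIndex_symm a b

theorem typ_smul (g : G) (a b : Sylow 3 G) : typ (g • a) (g • b) = typ a b := relIndex_smul g a b

theorem typ_self (a : Sylow 3 G) : typ a a = 1 := Subgroup.relIndex_self _

theorem card_eq_card (a b : Sylow 3 G) : Nat.card (a : Subgroup G) = Nat.card (b : Subgroup G) :=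
  a.card_eq_multiplicity.trans b.card_eq_multiplicity.symm

theorem card_mul_typ (a b : Sylow 3 G) :
    Nat.card ((a : Subgroup G) ⊓ b : Subgroup G) * typ a b = Nat.card (a : Subgroup G) := card_inf_mul a b

theorem card_fs_cj (g : G) (K : Subgroup G) : (fs (cj g K)).card = (fs K).card := by
  refine (Finset.card_bij' (fun c _ => g • c) (fun c _ => g⁻¹ • c) ?_ ?_ ?_ ?_).symm
  · intro c hc; simpa [cj_le_smul] using hc
  · intro c hc
    rw [mem_fs] at hc ⊢
    rw [← cj_le_smul (g := g)]
    simpa using hc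
  · intro c _; simp
  · intro c _; simp

/-- Double counting of incidences for a conjugation-invariant set of subgroups. -/
theorem incidence (hn : Nat.card (Sylow 3 G) = 22) (S : Finset (Subgroup G))
    (hS : ∀ g : G, ∀ K ∈ S, cj g K ∈ S) (a : Sylow 3 G) :
    22 * (S.filter fun K => K ≤ (a : Subgroup G)).card = ∑ K ∈ S, (fs K).card := by
  have h := Finset.sum_card_bipartiteAbove_eq_sum_card_bipartiteBelow (r := fun (K : Subgroup G) (c : Sylow 3 G) =>
    K ≤ (c : Subgroup G)) (s := S) (t := Finset.univ)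
  rw [show ∑ K ∈ S, (fs K).card = ∑ K ∈ S, (Finset.univ.filter fun c : Sylow 3 G => K ≤ c).card from rfl]
  simp only [Finset.bipartiteAbove, Finset.bipartiteBelow] at h
  rw [h, Finset.sum_const_nat (m := (S.filter fun K => K ≤ (a : Subgroup G)).card), Finset.card_univ,
    ← Nat.card_eq_fintype_card, hn]
  intro c _
  obtain ⟨g, rfl⟩ := exists_smul_eq G a c
  refine (Finset.card_bij' (fun K _ => cj g K) (fun K _ => cj g⁻¹ K) ?_ ?_ ?_ ?_).symm
  · intro K hK
    rw [Finset.mem_filter] at hK ⊢
    exact ⟨hS g K hK.1, cj_le_smul.mpr hK.2⟩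
  · intro K hK
    rw [Finset.mem_filter] at hK ⊢
    refine ⟨hS _ K hK.1, ?_⟩
    rw [← cj_le_smul (g := g), cj_mul, mul_inv_cancel, cj_one]
    exact hK.2
  · intro K _; simp [cj_mul, cj_one]
  · intro K _; simp [cj_mul, cj_one]

theorem IsLine.cj {K : Subgroup G} (h : IsLine K) (g : G) : IsLine (cj g K) := by
  obtain ⟨a, b, h1, rfl⟩ := h
  exact ⟨g • a, g • b, by rw [typ_smul]; exact h1, smul_inf' g a b⟩

theorem eq_of_typ_eq_one {a b : Sylow 3 G} (h : typ a b = 1) : b = a :=
  eq_of_le_stab ((Subgroup.relIndex_eq_one.mp h).trans (le_stab b))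

theorem typ_cases (hn : Nat.card (Sylow 3 G) = 22) {a b : Sylow 3 G} (h : b ≠ a) :
    typ a b = 3 ∨ typ a b = 9 := by
  obtain ⟨k, hk⟩ := a.isPGroup'.index ((b : Subgroup G).subgroupOf (a : Subgroup G))
  have hk' : typ a b = 3 ^ k := hk
  have hle : typ a b ≤ 22 := by
    rw [typ, ← card_orbit, ← hn]
    exact Nat.card_le_card_of_injective _ Subtype.val_injective
  rcases k with _ | _ | _ | k
  · exact absurd (eq_of_typ_eq_one (by simpa using hk')) h
  · exact Or.inl (by simpa using hk')
  · exact Or.inr (by simpa using hk')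
  · exfalso
    have h27 : (27 : ℕ) ≤ 3 ^ (k + 1 + 1 + 1) :=
      le_trans (by norm_num) (Nat.pow_le_pow_right (by norm_num : 0 < 3) (by omega : 3 ≤ k + 1 + 1 + 1))
    omega

theorem card_T_add (hn : Nat.card (Sylow 3 G) = 22) (a : Sylow 3 G) :
    (T 3 a).card + (T 9 a).card = 21 := by
  have hd : Disjoint (T 3 a) (T 9 a) := Finset.disjoint_left.mpr fun b h1 h2 => by
    rw [mem_T] at h1 h2; omega
  rw [← Finset.card_union_of_disjoint hd,
    show T 3 a ∪ T 9 a = Finset.univ.erase a by
      ext b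
      simp only [Finset.mem_union, mem_T, Finset.mem_erase, Finset.mem_univ, and_true]
      refine ⟨fun h e => ?_, typ_cases hn⟩
      rw [e, typ_self] at h; omega,
    Finset.card_erase_of_mem (Finset.mem_univ a), Finset.card_univ, ← Nat.card_eq_fintype_card, hn]

theorem dvd_card_T (i : ℕ) (a : Sylow 3 G) : i ∣ (T i a).card := by
  have h := dvd_card (H := (a : Subgroup G)) (T i a : Set (Sylow 3 G)) i (fun g b hb => ?_)
    fun b hb => ?_
  · rwa [Nat.card_coe_set_eq, Set.ncard_coe_finset] at h
  · rw [Finset.mem_coe, mem_T] at hb ⊢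
    change typ a ((g : G) • b) = i
    rw [← hb, ← typ_smul (g : G) a b, mem_stab.mp (le_stab a g.2)]
  · rw [card_orbit]; exact mem_T.mp hb

theorem line_inter (hn : Nat.card (Sylow 3 G) = 22) {K : Subgroup G} (hK : IsLine K) {c d : Sylow 3 G}
    (hc : K ≤ (c : Subgroup G)) (hd : K ≤ (d : Subgroup G)) (hcd : d ≠ c) :
    typ c d = 3 ∧ (c : Subgroup G) ⊓ d = K := by
  obtain ⟨a, b, h1, rfl⟩ := hK
  have e1 := card_mul_typ a b
  have e2 := card_mul_typ c d
  have hle : ((a : Subgroup G) ⊓ b) ≤ (c : Subgroup G) ⊓ d := le_inf hc hd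
  have hcard := Subgroup.card_le_of_le hle
  rw [card_eq_card c a, ← e1, h1] at e2
  have hpos : 0 < Nat.card ((a : Subgroup G) ⊓ b : Subgroup G) := Nat.card_pos
  rcases typ_cases hn hcd with h | h <;> rw [h] at e2
  · exact ⟨h, (Subgroup.eq_of_le_of_card_ge hle (by omega)).symm⟩
  · omega

theorem line_normal {K : Subgroup G} (hK : IsLine K) {c : Sylow 3 G} (hc : K ≤ (c : Subgroup G))
    {g : G} (hg : g ∈ (c : Subgroup G)) : cj g K = K := by
  obtain ⟨a, b, h1, rfl⟩ := hK
  set K := (a : Subgroup G) ⊓ b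
  have e1 := card_mul_typ a b
  rw [h1, card_eq_card a c] at e1
  have hidx : (K.subgroupOf (c : Subgroup G)).index = 3 := by
    have h2 := (K.subgroupOf (c : Subgroup G)).card_mul_index
    rw [Nat.card_congr (Subgroup.subgroupOfEquivOfLe hc).toEquiv, ← e1] at h2
    exact Nat.eq_of_mul_eq_mul_left Nat.card_pos h2
  have hnorm : (K.subgroupOf (c : Subgroup G)).Normal := by
    refine Subgroup.normal_of_index_eq_minFac_card ?_
    obtain ⟨k, hk⟩ := IsPGroup.iff_card.1 c.isPGroup'
    have hk0 : k ≠ 0 := by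
      rintro rfl
      have := (K.subgroupOf (c : Subgroup G)).index_dvd_card
      rw [hidx, hk, pow_zero] at this
      omega
    rw [hidx, hk, Nat.pow_minFac hk0, Nat.prime_three.minFac_eq]
  refine Subgroup.eq_of_le_of_card_ge ?_ (card_cj g K).ge
  intro x hx
  rw [mem_cj] at hx
  have := hnorm.conj_mem ⟨g⁻¹ * x * g, hc hx⟩ hx ⟨g, hg⟩
  simpa [Subgroup.mem_subgroupOf, mul_assoc] using this

theorem three_dvd_fs (hn : Nat.card (Sylow 3 G) = 22) {K : Subgroup G} (hK : IsLine K) {c : Sylow 3 G}
    (hc : c ∈ fs K) : 3 ∣ ((fs K).erase c).card := by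
  rw [mem_fs] at hc
  have h := dvd_card (H := (c : Subgroup G)) ((fs K).erase c : Set (Sylow 3 G)) 3 (fun g d hd => ?_)
    fun d hd => ?_
  · rwa [Nat.card_coe_set_eq, Set.ncard_coe_finset] at h
  · simp only [Finset.mem_coe, Finset.mem_erase, mem_fs] at hd ⊢
    have hfix : (g : G) • c = c := mem_stab.mp (le_stab c g.2)
    refine ⟨fun e => hd.1 (MulAction.injective (g : G) (e.trans hfix.symm)), ?_⟩
    change K ≤ (((g : G) • d : Sylow 3 G) : Subgroup G)
    rw [← line_normal hK hc g.2, cj_le_smul]; exact hd.2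
  · simp only [Finset.mem_coe, Finset.mem_erase, mem_fs] at hd
    rw [card_orbit]; exact (line_inter hn hK hc hd.2 hd.1).1

theorem fs_erase_subset (hn : Nat.card (Sylow 3 G) = 22) {K : Subgroup G} {a : Sylow 3 G}
    (hK : K ∈ linesAt a) : (fs K).erase a = (T 3 a).filter fun b : Sylow 3 G => (a : Subgroup G) ⊓ b = K := by
  rw [mem_linesAt] at hK
  ext b
  simp only [Finset.mem_erase, mem_fs, Finset.mem_filter, mem_T]
  refine ⟨fun h => line_inter hn hK.1 hK.2 h.2 h.1, fun h => ⟨fun e => ?_, h.2 ▸ inf_le_right⟩⟩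
  rw [e, typ_self] at h; omega

/-- The points of type `3` are partitioned by the lines. -/
theorem sum_lines (hn : Nat.card (Sylow 3 G) = 22) (a : Sylow 3 G) :
    ∑ K ∈ linesAt a, ((fs K).erase a).card = (T 3 a).card := by
  rw [Finset.card_eq_sum_card_fiberwise (f := fun b : Sylow 3 G => (a : Subgroup G) ⊓ b) (t := linesAt a)]
  · exact Finset.sum_congr rfl fun K hK => by rw [fs_erase_subset hn hK]
  · intro b hb
    rw [Finset.mem_coe, mem_T] at hb
    rw [Finset.mem_coe, mem_linesAt]
    exact ⟨⟨a, b, hb, rfl⟩, inf_le_left⟩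

theorem iInf_eq_bot [IsSimpleGroup G] (hn : Nat.card (Sylow 3 G) = 22) :
    ⨅ a : Sylow 3 G, (a : Subgroup G) = ⊥ := by
  haveI := Fact.mk Nat.prime_three
  refine eq_bot_iff.mpr (iInf_sylow_le_pCore.trans ?_)
  have hnorm : (Cfsg.pCore 3 G).Normal := by
    constructor
    intro x hx g
    have h : (Cfsg.pCore 3 G).map (MulAut.conj g).toMonoidHom ≤ Cfsg.pCore 3 G := by
      rw [Subgroup.map_le_iff_le_comap]
      refine sSup_le ?_
      rintro N ⟨hN, hp⟩ y hy
      exact le_sSup (s := {N : Subgroup G | N.Normal ∧ IsPGroup 3 N}) ⟨hN, hp⟩ (hN.conj_mem y hy g)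
    exact h ⟨x, hx, rfl⟩
  rcases hnorm.eq_bot_or_eq_top with h | h
  · exact h.le
  · exfalso
    have hp : IsPGroup 3 (⊤ : Subgroup G) := by
      rw [← h]; exact Sylow.sSup_of_normal _ (fun _ h => h.2) (fun _ h => h.1)
    obtain ⟨P⟩ := (Sylow.nonempty : Nonempty (Sylow 3 G))
    have hP : (P : Subgroup G) = ⊤ := (P.is_maximal' hp le_top).symm
    have h1 := P.card_dvd_index
    rw [hn, hP, Subgroup.index_top] at h1
    omega

/-- Either the Sylow subgroups have order `3`, or each point has exactly four lines, all of size `4`. -/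
theorem dichotomy [IsSimpleGroup G] (hn : Nat.card (Sylow 3 G) = 22) (a : Sylow 3 G) :
    Nat.card (a : Subgroup G) = 3 ∨
      ((T 3 a).card = 12 ∧ (T 9 a).card = 9 ∧ (linesAt a).card = 4 ∧
        ∀ K : Subgroup G, IsLine K → (fs K).card = 4) := by
  haveI := Fact.mk Nat.prime_three
  by_cases h22 : ∃ K : Subgroup G, IsLine K ∧ (fs K).card = 22
  · left
    obtain ⟨K, ⟨b, c, h1, hK⟩, hcard⟩ := h22
    have hall : ∀ d : Sylow 3 G, K ≤ (d : Subgroup G) := fun d => mem_fs.mp (by
      rw [Finset.eq_univ_of_card (fs K) (by rw [hcard, ← Nat.card_eq_fintype_card, hn])]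
      exact Finset.mem_univ d)
    have hbot : K = ⊥ := eq_bot_iff.mpr ((le_iInf hall).trans (iInf_eq_bot hn).le)
    have := card_mul_typ b c
    rw [hK, hbot, Subgroup.card_bot, h1, one_mul, card_eq_card b a] at this
    exact this.symm
  right
  simp only [not_exists, not_and] at h22
  have hfour : ∀ K : Subgroup G, IsLine K → (fs K).card = 4 := by
    intro K hK
    obtain ⟨b, c, h1, hbc⟩ := id hK
    have hbK : b ∈ fs K := mem_fs.mpr (hbc ▸ inf_le_left)
    have hcK : c ∈ (fs K).erase b := Finset.mem_erase.mpr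
      ⟨fun e => by rw [e, typ_self] at h1; omega, mem_fs.mpr (hbc ▸ inf_le_right)⟩
    have hd := three_dvd_fs hn hK hbK
    have hpos := Finset.card_pos.mpr ⟨c, hcK⟩
    have hsucc := Finset.card_erase_add_one hbK
    have hle : (fs K).card ≤ 22 := by
      rw [← hn, Nat.card_eq_fintype_card]; exact Finset.card_le_univ _
    have hne := h22 K hK
    set f := (fs K).card with hf
    let S : Finset (Subgroup G) := Finset.univ.filter fun L => IsLine L ∧ (fs L).card = f
    have hi := incidence hn S (fun g L hL => by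
      simp only [S, Finset.mem_filter, Finset.mem_univ, true_and] at hL ⊢
      exact ⟨hL.1.cj g, by rw [card_fs_cj]; exact hL.2⟩) b
    rw [Finset.sum_const_nat (m := f) fun L hL => (Finset.mem_filter.mp hL).2.2] at hi
    set n := (S.filter fun L => L ≤ (b : Subgroup G)).card with hn'
    have hn1 : 0 < n := Finset.card_pos.mpr ⟨K, Finset.mem_filter.mpr
      ⟨Finset.mem_filter.mpr ⟨Finset.mem_univ _, hK, rfl⟩, mem_fs.mp hbK⟩⟩
    have hbound : n * (f - 1) ≤ 21 := by
      have h2 : n * (f - 1) = ∑ L ∈ (S.filter fun L => L ≤ (b : Subgroup G)), ((fs L).erase b).card := by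
        rw [Finset.sum_const_nat (m := f - 1)]
        intro L hL
        rw [Finset.mem_filter] at hL
        rw [Finset.card_erase_of_mem (mem_fs.mpr hL.2), (Finset.mem_filter.mp hL.1).2.2]
      have h3 : (S.filter fun L => L ≤ (b : Subgroup G)) ⊆ linesAt b := fun L hL => by
        rw [Finset.mem_filter] at hL
        exact mem_linesAt.mpr ⟨(Finset.mem_filter.mp hL.1).2.1, hL.2⟩
      rw [h2]
      refine (Finset.sum_le_sum_of_subset h3).trans ?_
      rw [sum_lines hn b]
      have := card_T_add hn b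
      omega
    have hsucc' : ((fs K).erase b).card + 1 = f := hsucc
    obtain ⟨s, hs⟩ := hd
    have hcases : f = 4 ∨ f = 7 ∨ f = 10 ∨ f = 13 ∨ f = 16 ∨ f = 19 := by omega
    rcases hcases with e | e | e | e | e | e
    · exact e
    all_goals (exfalso; rw [e] at hi hbound; omega)
  have hlines : (T 3 a).card = 3 * (linesAt a).card := by
    rw [← sum_lines hn a, Finset.sum_const_nat (m := 3), mul_comm]
    intro K hK
    rw [mem_linesAt] at hK
    rw [Finset.card_erase_of_mem (mem_fs.mpr hK.2), hfour K hK.1]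
  have hi := incidence hn (Finset.univ.filter IsLine) (fun g L hL => by
      simp only [Finset.mem_filter, Finset.mem_univ, true_and] at hL ⊢
      exact hL.cj g) a
  rw [Finset.sum_const_nat (m := 4) fun L hL => hfour L (Finset.mem_filter.mp hL).2,
    Finset.filter_filter, ← linesAt] at hi
  have := card_T_add hn a
  obtain ⟨r, hr⟩ := dvd_card_T 9 a
  refine ⟨?_, ?_, ?_, hfour⟩ <;> omega

theorem T9_eq_orbit {a b : Sylow 3 G} (h9 : (T 9 a).card = 9) (hb : typ a b = 9) {c : Sylow 3 G}
    (hc : typ a c = 9) : ∃ q ∈ (a : Subgroup G), q • b = c := by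
  have hsub : (orbit (a : Subgroup G) b).toFinset ⊆ T 9 a := by
    intro d hd
    rw [Set.mem_toFinset] at hd
    obtain ⟨⟨q, hq⟩, rfl⟩ := hd
    rw [mem_T]
    change typ a (q • b) = 9
    rw [← hb, ← typ_smul q a b, mem_stab.mp (le_stab a hq)]
  have heq := Finset.eq_of_subset_of_card_le hsub (by
    rw [h9, Set.toFinset_card, ← Nat.card_eq_fintype_card, card_orbit]; exact hb.ge)
  have hc' : c ∈ (orbit (a : Subgroup G) b).toFinset := heq ▸ mem_T.mpr hc
  rw [Set.mem_toFinset] at hc'
  obtain ⟨⟨q, hq⟩, hqe⟩ := hc'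
  exact ⟨q, hq, hqe⟩

/-- In the second case, intersections of type `9` are normal in the Sylow subgroups. -/
theorem nine_normal [IsSimpleGroup G] (hn : Nat.card (Sylow 3 G) = 22)
    (hcase : ∀ a : Sylow 3 G, (T 9 a).card = 9) {a b : Sylow 3 G} (hab : typ a b = 9) :
    ∀ g ∈ (a : Subgroup G), cj g ((a : Subgroup G) ⊓ b) = (a : Subgroup G) ⊓ b := by
  haveI := Fact.mk Nat.prime_three
  by_contra hnn
  set M := (a : Subgroup G) ⊓ b with hM
  have hcardM : Nat.card M * 9 = Nat.card (a : Subgroup G) := by rw [← hab]; exact card_mul_typ a b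
  -- all pairs of type nine are conjugate
  have hpairs : ∀ c d : Sylow 3 G, typ c d = 9 → ∃ g : G, g • a = c ∧ g • b = d := by
    intro c d hcd
    obtain ⟨g, rfl⟩ := exists_smul_eq G a c
    obtain ⟨q, hq, hqd⟩ := T9_eq_orbit (hcase _) (by rw [typ_smul]; exact hab) hcd
    exact ⟨q * g, by rw [mul_smul, mem_stab.mp (le_stab (g • a) hq)], by rw [mul_smul, hqd]⟩
  let fib : Sylow 3 G → Subgroup G → Finset (Sylow 3 G) := fun c L =>
    (T 9 c).filter fun d : Sylow 3 G => (c : Subgroup G) ⊓ d = L
  have hfib_smul : ∀ g c L, (fib (g • c) (cj g L)).card = (fib c L).card := by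
    intro g c L
    refine (Finset.card_bij' (fun d _ => g • d) (fun d _ => g⁻¹ • d) ?_ ?_ ?_ ?_).symm
    · intro d hd
      simp only [fib, Finset.mem_filter, mem_T] at hd ⊢
      exact ⟨by rw [typ_smul]; exact hd.1, by rw [smul_inf', hd.2]⟩
    · intro d hd
      simp only [fib, Finset.mem_filter, mem_T] at hd ⊢
      refine ⟨by rw [← typ_smul g, smul_inv_smul]; exact hd.1, ?_⟩
      have h2 := smul_inf' g⁻¹ (g • c) d
      rwa [inv_smul_smul, hd.2, cj_mul, inv_mul_cancel, cj_one] at h2
    · intro d _; simp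
    · intro d _; simp
  -- the fibre at `a`
  have h3 : (fib a M).card = 3 := by
    let img := (T 9 a).image fun d : Sylow 3 G => (a : Subgroup G) ⊓ d
    have hsum := Finset.card_eq_sum_card_image (fun d : Sylow 3 G => (a : Subgroup G) ⊓ d) (T 9 a)
    have hconst : ∀ L ∈ img, ((T 9 a).filter fun d : Sylow 3 G => (a : Subgroup G) ⊓ d = L).card = (fib a M).card := by
      intro L hL
      obtain ⟨d, hd, rfl⟩ := Finset.mem_image.mp hL
      obtain ⟨q, hq, rfl⟩ := T9_eq_orbit (hcase a) hab (mem_T.mp hd)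
      have h2 := smul_inf' q a b
      rw [mem_stab.mp (le_stab a hq)] at h2
      rw [h2, ← hfib_smul q a M, mem_stab.mp (le_stab a hq)]
    rw [hcase a, Finset.sum_const_nat hconst] at hsum
    have himg : 1 < img.card := by
      simp only [not_forall] at hnn
      obtain ⟨g, hg, hgM⟩ := hnn
      refine Finset.one_lt_card.mpr ⟨cj g M, ?_, M, ?_, hgM⟩
      · refine Finset.mem_image.mpr ⟨g • b, mem_T.mpr ?_, ?_⟩
        · rw [← hab, ← typ_smul g a b, mem_stab.mp (le_stab a hg)]
        · have h2 := smul_inf' g a b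
          rwa [mem_stab.mp (le_stab a hg)] at h2
      · exact Finset.mem_image.mpr ⟨b, mem_T.mpr hab, rfl⟩
    -- an element of `a` normalising `M` outside `M`
    have htwo : 1 < (fib a M).card := by
      have hlt : M.subgroupOf (a : Subgroup G) < ⊤ := by
        refine lt_top_iff_ne_top.mpr fun e => ?_
        have := Subgroup.card_le_of_le (Subgroup.subgroupOf_eq_top.mp e)
        have hpos : 0 < Nat.card M := Nat.card_pos
        omega
      haveI : Group.IsNilpotent (a : Subgroup G) := a.isPGroup'.isNilpotent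
      obtain ⟨x, hxN, hxM⟩ := SetLike.exists_of_lt (Group.normalizerCondition_of_isNilpotent _ hlt)
      have hnm : cj (x : G) M = M := by
        refine Subgroup.eq_of_le_of_card_ge ?_ (card_cj _ M).ge
        intro y hy
        rw [mem_cj] at hy
        have := (Subgroup.mem_normalizer_iff.mp hxN ⟨(x : G)⁻¹ * y * x, inf_le_left (b := (b : Subgroup G)) hy⟩).mp hy
        simpa [Subgroup.mem_subgroupOf, mul_assoc] using this
      refine Finset.one_lt_card.mpr ⟨b, ?_, (x : G) • b, ?_, fun e => ?_⟩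
      · simp only [fib, Finset.mem_filter, mem_T]; exact ⟨hab, rfl⟩
      · simp only [fib, Finset.mem_filter, mem_T]
        have h2 := smul_inf' (x : G) a b
        rw [mem_stab.mp (le_stab a x.2), hnm] at h2
        exact ⟨by rw [← hab, ← typ_smul (x : G) a b, mem_stab.mp (le_stab a x.2)], h2⟩
      · refine hxM ?_
        rw [Subgroup.mem_subgroupOf]
        obtain ⟨k, hk⟩ := a.isPGroup' x
        exact ⟨x.2, mem_of_pow_mem (mem_stab.mpr e.symm) (k := k) (congrArg Subtype.val hk)⟩
    have hle : (fib a M).card ≤ 9 := by rw [← hcase a]; exact Finset.card_filter_le _ _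
    have himg9 : img.card ≤ 9 := by rw [← hcase a]; exact Finset.card_image_le
    have hprod : 9 = img.card * (fib a M).card := hsum
    set x := img.card
    set y := (fib a M).card
    interval_cases x <;> omega
  have hsubM : ∀ c d : Sylow 3 G, typ c d = 9 → M ≤ (c : Subgroup G) → M ≤ (d : Subgroup G) →
      (c : Subgroup G) ⊓ d = M := by
    intro c d hcd hc hd
    refine (Subgroup.eq_of_le_of_card_ge (le_inf hc hd) ?_).symm
    have := card_mul_typ c d
    rw [hcd, card_eq_card c a] at this
    omega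
  have hfib' : ∀ c d : Sylow 3 G, typ c d = 9 → (c : Subgroup G) ⊓ d = M → (fib c M).card = 3 := by
    intro c d hcd hM'
    obtain ⟨g, rfl, rfl⟩ := hpairs c d hcd
    rw [smul_inf', ← hM] at hM'
    conv_lhs => rw [← hM']
    rw [hfib_smul, h3]
  -- the conjugates of `M` and the ordered pairs
  let pr : Finset (Sylow 3 G × Sylow 3 G) := Finset.univ.filter fun x => typ x.1 x.2 = 9
  let S := pr.image fun x => (x.1 : Subgroup G) ⊓ x.2
  have hpr : pr.card = 198 := by
    rw [Finset.card_eq_sum_card_fiberwise (f := Prod.fst) (t := Finset.univ) (fun _ _ => Finset.mem_univ _),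
      Finset.sum_const_nat (m := 9), Finset.card_univ, ← Nat.card_eq_fintype_card, hn]
    intro c _
    rw [← hcase c]
    refine Finset.card_bij' (fun x _ => x.2) (fun d _ => (c, d)) ?_ ?_ ?_ ?_
    · intro x hx
      simp only [pr, Finset.mem_filter, Finset.mem_univ, true_and] at hx
      rw [mem_T, ← hx.2]; exact hx.1
    · intro d hd
      simp only [pr, Finset.mem_filter, Finset.mem_univ, true_and]
      exact ⟨mem_T.mp hd, trivial⟩
    · intro x hx
      simp only [pr, Finset.mem_filter, Finset.mem_univ, true_and] at hx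
      exact Prod.ext hx.2.symm rfl
    · intro d _; rfl
  have hSconj : ∀ L ∈ S, ∃ g, L = cj g M := by
    intro L hL
    obtain ⟨x, hx, rfl⟩ := Finset.mem_image.mp hL
    obtain ⟨g, h1, h2⟩ := hpairs x.1 x.2 (Finset.mem_filter.mp hx).2
    exact ⟨g, by rw [← h1, ← h2, smul_inf']⟩
  let q := (pr.filter fun x => (x.1 : Subgroup G) ⊓ x.2 = M).card
  have hq : 198 = S.card * q := by
    rw [← hpr, Finset.card_eq_sum_card_image (fun x : Sylow 3 G × Sylow 3 G => (x.1 : Subgroup G) ⊓ x.2) pr,
      Finset.sum_const_nat]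
    intro L hL
    obtain ⟨g, rfl⟩ := hSconj L hL
    refine (Finset.card_bij' (fun x _ => (g • x.1, g • x.2)) (fun x _ => (g⁻¹ • x.1, g⁻¹ • x.2)) ?_ ?_ ?_ ?_).symm
    · intro x hx
      simp only [pr, Finset.mem_filter, Finset.mem_univ, true_and] at hx ⊢
      exact ⟨by rw [typ_smul]; exact hx.1, by rw [smul_inf', hx.2]⟩
    · intro x hx
      simp only [pr, Finset.mem_filter, Finset.mem_univ, true_and] at hx ⊢
      exact ⟨by rw [typ_smul]; exact hx.1, by rw [smul_inf', hx.2, cj_mul, inv_mul_cancel, cj_one]⟩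
    · intro x _; simp
    · intro x _; simp
  have hMS : M ∈ S := Finset.mem_image.mpr
    ⟨(a, b), Finset.mem_filter.mpr ⟨Finset.mem_univ _, hab⟩, rfl⟩
  have hi := incidence hn S (fun g L hL => by
    obtain ⟨x, hx, rfl⟩ := Finset.mem_image.mp hL
    refine Finset.mem_image.mpr ⟨(g • x.1, g • x.2), Finset.mem_filter.mpr ⟨Finset.mem_univ _, ?_⟩,
      smul_inf' g x.1 x.2⟩
    rw [typ_smul]; exact (Finset.mem_filter.mp hx).2) a
  rw [Finset.sum_const_nat (m := (fs M).card) fun L hL => by
    obtain ⟨g, rfl⟩ := hSconj L hL; rw [card_fs_cj]] at hi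
  have hqeven : 2 ∣ q := by
    let X := {x : Sylow 3 G × Sylow 3 G // x ∈ pr.filter fun x => (x.1 : Subgroup G) ⊓ x.2 = M}
    let σ : Equiv.Perm X :=
      { toFun := fun x => ⟨(x.1.2, x.1.1), by
          have := x.2
          simp only [pr, Finset.mem_filter, Finset.mem_univ, true_and] at this ⊢
          exact ⟨by rw [typ_symm]; exact this.1, by rw [inf_comm]; exact this.2⟩⟩
        invFun := fun x => ⟨(x.1.2, x.1.1), by
          have := x.2
          simp only [pr, Finset.mem_filter, Finset.mem_univ, true_and] at this ⊢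
          exact ⟨by rw [typ_symm]; exact this.1, by rw [inf_comm]; exact this.2⟩⟩
        left_inv := fun x => rfl
        right_inv := fun x => rfl }
    by_contra hodd
    obtain ⟨x, hx⟩ := Equiv.Perm.exists_fixed_point_of_prime (p := 2) (n := 1) (α := X) (σ := σ)
      (by rw [Fintype.card_coe]; exact hodd) (Equiv.ext fun x => rfl)
    have h2 : x.1.2 = x.1.1 := congrArg (fun z : X => z.1.1) hx
    have := x.2
    simp only [pr, Finset.mem_filter, Finset.mem_univ, true_and] at this
    rw [h2, typ_self] at this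
    omega
  -- the points over `M`
  have hsplit : (fs M).erase a = fib a M ∪ (T 3 a).filter fun d : Sylow 3 G => M ≤ (d : Subgroup G) := by
    ext d
    simp only [fib, Finset.mem_erase, mem_fs, Finset.mem_union, Finset.mem_filter, mem_T]
    refine ⟨fun h => ?_, fun h => ⟨fun e => ?_, ?_⟩⟩
    · rcases typ_cases hn h.1 with e | e
      · exact Or.inr ⟨e, h.2⟩
      · exact Or.inl ⟨e, hsubM a d e inf_le_left h.2⟩
    · rw [e, typ_self] at h; omega
    · rcases h with h | h
      · exact h.2 ▸ inf_le_right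
      · exact h.2
  have hone : ((T 3 a).filter fun d : Sylow 3 G => M ≤ (d : Subgroup G)).card ≤ 3 ∧
      3 ∣ ((T 3 a).filter fun d : Sylow 3 G => M ≤ (d : Subgroup G)).card := by
    by_cases hex : ∃ d, typ a d = 3 ∧ M ≤ (d : Subgroup G)
    swap
    · rw [Finset.filter_eq_empty_iff.mpr fun d hd hMd => hex ⟨d, mem_T.mp hd, hMd⟩]; simp
    obtain ⟨d, hd, hMd⟩ := hex
    set K := (a : Subgroup G) ⊓ d with hKdef
    have hKl : K ∈ linesAt a := mem_linesAt.mpr ⟨⟨a, d, hd, rfl⟩, inf_le_left⟩
    have heq : ((T 3 a).filter fun d : Sylow 3 G => M ≤ (d : Subgroup G)) = (fs K).erase a := by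
      rw [fs_erase_subset hn hKl]
      refine Finset.filter_congr fun e he => ⟨fun hMe => ?_, fun h => (le_inf inf_le_left hMd).trans (h.ge.trans inf_le_right)⟩
      by_contra hne
      rw [mem_T] at he
      set K' := (a : Subgroup G) ⊓ e
      have hK' : K' ∈ linesAt a := mem_linesAt.mpr ⟨⟨a, e, he, rfl⟩, inf_le_left⟩
      have c1 : Nat.card K * 3 = Nat.card (a : Subgroup G) := (congrArg (Nat.card K * ·) hd.symm).trans (card_mul_typ a d)
      have c2 : Nat.card K' * 3 = Nat.card (a : Subgroup G) := (congrArg (Nat.card K' * ·) he.symm).trans (card_mul_typ a e)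
      have hlt : ¬ K ≤ K' := fun h => hne (Subgroup.eq_of_le_of_card_ge h (by
        change Nat.card K' ≤ Nat.card K; omega)).symm
      have hdvd := Subgroup.card_dvd_of_le (inf_le_left : K ⊓ K' ≤ K)
      have hne' : Nat.card (K ⊓ K' : Subgroup G) ≠ Nat.card K := fun h => hlt
        (inf_eq_left.mp (Subgroup.eq_of_le_of_card_ge inf_le_left h.ge))
      obtain ⟨i, hi⟩ := IsPGroup.iff_card.mp (a.isPGroup'.to_le ((inf_le_left : K ⊓ K' ≤ K).trans inf_le_left))
      obtain ⟨j, hj⟩ := IsPGroup.iff_card.mp (a.isPGroup'.to_le (inf_le_left : K ≤ (a : Subgroup G)))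
      rw [hi, hj] at hne'
      rw [hi, hj] at hdvd
      have hij : i + 1 ≤ j := by
        rcases Nat.lt_or_ge i j with h | h
        · exact h
        · exact absurd (by rw [le_antisymm ((Nat.pow_dvd_pow_iff_le_right (by norm_num)).mp hdvd) h]) hne'
      have hpow : 3 ^ (i + 1) ≤ 3 ^ j := Nat.pow_le_pow_right (by norm_num) hij
      rw [pow_succ] at hpow
      have hMK : M ≤ K ⊓ K' := le_inf (le_inf inf_le_left hMd) (le_inf inf_le_left hMe)
      have heqM : M = K ⊓ K' := Subgroup.eq_of_le_of_card_ge hMK (by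
        have hjK : Nat.card K = 3 ^ j := hj
        rw [hi]; omega)
      refine hnn fun g hg => ?_
      rw [heqM]
      refine Subgroup.eq_of_le_of_card_ge ?_ (card_cj g _).ge
      intro x hx
      rw [mem_cj] at hx
      refine ⟨?_, ?_⟩
      · rw [← line_normal (mem_linesAt.mp hKl).1 inf_le_left hg]; exact mem_cj.mpr hx.1
      · rw [← line_normal (mem_linesAt.mp hK').1 inf_le_left hg]; exact mem_cj.mpr hx.2
    rw [heq]
    refine ⟨?_, three_dvd_fs hn (mem_linesAt.mp hKl).1 (mem_fs.mpr inf_le_left)⟩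
    have hd3 := three_dvd_fs hn (mem_linesAt.mp hKl).1 (mem_fs.mpr (inf_le_left : K ≤ (a : Subgroup G)))
    rcases dichotomy hn a with h | ⟨-, -, -, h⟩
    · have : Nat.card M * 9 = 3 := hcardM.trans h
      omega
    · rw [Finset.card_erase_of_mem (mem_fs.mpr inf_le_left), h K (mem_linesAt.mp hKl).1]
  have hfs : (fs M).card = 4 + ((T 3 a).filter fun d : Sylow 3 G => M ≤ (d : Subgroup G)).card := by
    have h1 := congrArg Finset.card hsplit
    rw [Finset.card_union_of_disjoint (Finset.disjoint_left.mpr fun d h1 h2 => by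
      simp only [fib, Finset.mem_filter, mem_T] at h1 h2; omega), h3,
      Finset.card_erase_of_mem (mem_fs.mpr (inf_le_left : M ≤ (a : Subgroup G)))] at h1
    have : 0 < (fs M).card := Finset.card_pos.mpr ⟨a, mem_fs.mpr inf_le_left⟩
    change (fs M).card - 1 = _ at h1
    omega
  obtain ⟨q', hq'⟩ := hqeven
  obtain ⟨s, hs⟩ := hone.2
  have hs2 : s ≤ 1 := by omega
  rcases Nat.le_one_iff_eq_zero_or_eq_one.mp hs2 with rfl | rfl
  · -- four points, all pairs of type nine
    have h4 : (fs M).card = 4 := by omega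
    have hq12 : q = 12 := by
      have hall : (pr.filter fun x => (x.1 : Subgroup G) ⊓ x.2 = M) = (fs M).offDiag := by
        ext x
        simp only [pr, Finset.mem_filter, Finset.mem_univ, true_and, Finset.mem_offDiag, mem_fs]
        refine ⟨fun h => ⟨h.2 ▸ inf_le_left, h.2 ▸ inf_le_right, fun e => ?_⟩, fun h => ?_⟩
        · rw [e, typ_self] at h; omega
        · rcases typ_cases hn (Ne.symm h.2.2) with e | e
          · exfalso
            set K := (x.1 : Subgroup G) ⊓ x.2
            have hKl : IsLine K := ⟨x.1, x.2, e, rfl⟩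
            have hsub : fs K ⊆ fs M := fun c hc => mem_fs.mpr ((le_inf h.1 h.2.1).trans (mem_fs.mp hc))
            have hcardK : (fs K).card = 4 := by
              rcases dichotomy hn a with h' | ⟨-, -, -, h'⟩
              · have : Nat.card M * 9 = 3 := hcardM.trans h'
                omega
              · exact h' K hKl
            have hfsK := Finset.eq_of_subset_of_card_le hsub (by omega)
            have haK : a ∈ fs K := hfsK ▸ mem_fs.mpr inf_le_left
            have hbK : b ∈ fs K := hfsK ▸ mem_fs.mpr inf_le_right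
            have h3' := (line_inter hn hKl (mem_fs.mp haK) (mem_fs.mp hbK)
              fun e' => by rw [e', typ_self] at hab; omega).1
            omega
          · exact ⟨e, hsubM _ _ e h.1 h.2.1⟩
      change (pr.filter fun x => (x.1 : Subgroup G) ⊓ x.2 = M).card = 12
      rw [hall, Finset.offDiag_card, h4]
    rw [hq12] at hq
    omega
  · have h7 : (fs M).card = 7 := by omega
    rw [h7] at hi
    have hodd : Odd S.card := by
      have h99 : S.card * q' = 99 := by
        rw [hq'] at hq
        nlinarith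
      exact Nat.Odd.of_mul_left (n := q') (by rw [h99]; exact ⟨49, rfl⟩)
    obtain ⟨k, hk⟩ := hodd
    omega

end

end Cfsg.Agent.H90.Sylow22
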