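import Cfsg.Agent.H90.Sylow22.Simple
import Cfsg.Agent.H90.SingularClass.Basic

/-! No finite group has twenty-two Sylow `3`-subgroups. -/

set_option autoImplicit false
open scoped Classical

namespace Cfsg.Agent.H90.Sylow22

open MulAction

universe u

theorem invariant_mod_three {G : Type*} [Group G] [Finite G] (hn : Nat.card (Sylow 3 G) = 22)
    {a : Sylow 3 G} {O : Set (Sylow 3 G)} (haO : a ∈ O)
    (hinv : ∀ g : (a : Subgroup G), ∀ c ∈ O, g • c ∈ O) : 3 ∣ O.ncard - 1 := by
  have key : ∀ i, i ∣ {c : Sylow 3 G | c ∈ O ∧ typ a c = i}.ncard := by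
    intro i
    rw [← Nat.card_coe_set_eq]
    refine dvd_card (H := (a : Subgroup G)) _ i (fun g c hc => ⟨hinv g c hc.1, ?_⟩) fun c hc => ?_
    · rw [← hc.2]
      change typ a ((g : G) • c) = typ a c
      rw [← typ_smul (g : G) a c, mem_stab.mp (le_stab a g.2)]
    · rw [card_fin_orbit]; exact hc.2
  have hsplit : O = insert a ({c : Sylow 3 G | c ∈ O ∧ typ a c = 3} ∪ {c | c ∈ O ∧ typ a c = 9}) := by
    ext c
    by_cases hca : c = a
    · simp [hca, haO]
    · simp only [Set.mem_insert_iff, hca, false_or, Set.mem_union]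
      exact ⟨fun hc => (typ_cases hn hca).imp (⟨hc, ·⟩) (⟨hc, ·⟩), fun hc => hc.elim And.left And.left⟩
  have h3 := key 3
  have h9 := key 9
  rw [hsplit, Set.ncard_insert_of_notMem (fun hm => by
      rcases hm with hm | hm <;> · have := hm.2; rw [typ_self] at this; omega),
    Set.ncard_union_eq (Set.disjoint_left.mpr fun c h1 h2 => by
      have := h1.2; have := h2.2; omega)]
  omega

theorem card_sylow_ne : ∀ (n : ℕ) (G : Type u) [Group G] [Finite G], Nat.card G = n →
    Nat.card (Sylow 3 G) ≠ 22 := by
  intro n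
  induction n using Nat.strong_induction_on with
  | _ n ih =>
  intro G _ _ hcardG hn
  haveI := Fact.mk Nat.prime_three
  haveI : Fact (Nat.Prime 11) := ⟨by norm_num⟩
  set K := (MulAction.toPermHom G (Sylow 3 G)).ker with hKdef
  have hmemK : ∀ g, g ∈ K ↔ ∀ c : Sylow 3 G, g • c = c := fun g =>
    ⟨fun h c => Equiv.congr_fun h c, fun h => Equiv.ext h⟩
  have hK : K = ⊥ := by
    by_contra hne
    have h22 : Nat.card (Sylow 3 (G ⧸ K)) = 22 := by
      rw [card_sylow_eq_of_ker_le_normalizer (f := QuotientGroup.mk' K) (QuotientGroup.mk'_surjective K),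
        hn]
      intro c g hg
      rw [QuotientGroup.ker_mk'] at hg
      exact Sylow.smul_eq_iff_mem_normalizer.mp ((hmemK g).mp hg c)
    refine ih _ ?_ (G ⧸ K) rfl h22
    rw [← hcardG, K.card_eq_card_quotient_mul_card_subgroup]
    exact lt_mul_of_one_lt_right Nat.card_pos
      (Finite.one_lt_card_iff_nontrivial.mpr ((Subgroup.nontrivial_iff_ne_bot K).mpr hne))
  have hfaith : ∀ g : G, (∀ c : Sylow 3 G, g • c = c) → g = 1 := fun g hg =>
    Subgroup.mem_bot.mp (hK ▸ (hmemK g).mpr hg)
  haveI : Nontrivial G := by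
    by_contra h
    rw [not_nontrivial_iff_subsingleton] at h
    haveI : Subsingleton (Sylow 3 G) := ⟨fun c d => Sylow.ext (Subsingleton.elim _ _)⟩
    obtain ⟨c⟩ := (Sylow.nonempty : Nonempty (Sylow 3 G))
    rw [Nat.card_of_subsingleton c] at hn
    omega
  haveI : IsSimpleGroup G := ⟨fun M hM => by
    by_contra hne
    rw [not_or] at hne
    obtain ⟨hMbot, hMtop⟩ := hne
    haveI := hM
    -- `M` is transitive
    have htrans : ∀ a c : Sylow 3 G, ∃ m ∈ M, m • a = c := by
      intro a c
      have htop : M ⊔ stabilizer G a = ⊤ := (max_stab hn le_sup_right).resolve_left fun e => by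
        refine hMbot (eq_bot_iff.mpr fun m hm => Subgroup.mem_bot.mpr (hfaith m fun c => ?_))
        obtain ⟨g, rfl⟩ := exists_smul_eq G a c
        have hm' : g⁻¹ * m * g ∈ stabilizer G a := le_sup_left.trans e.le (by
          simpa using hM.conj_mem m hm g⁻¹)
        rw [← mul_smul, show m * g = g * (g⁻¹ * m * g) by group, mul_smul, mem_stab.mp hm']
      obtain ⟨g, rfl⟩ := exists_smul_eq G a c
      obtain ⟨m, hm, s, hs, rfl⟩ := Subgroup.mem_sup_of_normal_left.mp (htop.ge (Subgroup.mem_top g))
      exact ⟨m, hm, by rw [mul_smul, mem_stab.mp hs]⟩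
    have hindex : ∀ a : Sylow 3 G, ((stabilizer G a).subgroupOf M).index = 22 := by
      intro a
      rw [show (stabilizer G a).subgroupOf M = stabilizer M a from rfl, index_stabilizer,
        show orbit M a = Set.univ from Set.eq_univ_of_forall fun c => by
          obtain ⟨m, hm, e⟩ := htrans a c
          exact ⟨⟨m, hm⟩, e⟩,
        Set.ncard_univ, hn]
    have hMlt : Nat.card M < n := by
      rw [← hcardG, ← Subgroup.card_top (G := G)]
      exact lt_of_le_of_ne (Subgroup.card_le_of_le le_top) fun e =>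
        hMtop (Subgroup.eq_of_le_of_card_ge le_top e.ge)
    by_cases h3 : 3 ∣ Nat.card M
    · obtain ⟨P⟩ := (Sylow.nonempty : Nonempty (Sylow 3 M))
      obtain ⟨a, ha⟩ := P.exists_comap_subtype_eq
      set D : Subgroup G := (a : Subgroup G) ⊓ M with hD
      have hDcj : ∀ g ∈ stabilizer G a, g ∈ Subgroup.normalizer (D : Set G) := by
        intro g hg
        refine mem_normalizer_of_cj ?_
        ext z
        rw [mem_cj, hD, Subgroup.mem_inf, Subgroup.mem_inf]
        refine and_congr ?_ ?_
        · conv_rhs => rw [← mem_stab.mp hg]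
          exact mem_smul.symm
        · refine ⟨fun h => ?_, fun h => by simpa using hM.conj_mem z h g⁻¹⟩
          simpa [mul_assoc] using hM.conj_mem _ h g
      have hPD : (P : Subgroup M) = (a : Subgroup G).subgroupOf M := ha.symm
      rcases max_stab hn (a := a) (H := Subgroup.normalizer (D : Set G)) hDcj with e | e
      · refine ih _ hMlt M rfl ?_
        rw [P.card_eq_index_normalizer, ← hindex a]
        congr 1
        ext m
        change m ∈ Subgroup.normalizer ((P : Subgroup M) : Set M) ↔ _
        rw [Subgroup.mem_subgroupOf, ← e, Subgroup.mem_normalizer_iff, Subgroup.mem_normalizer_iff, hPD]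
        refine ⟨fun h z => ?_, fun h z => ?_⟩
        · refine ⟨fun hz => ?_, fun hz => ?_⟩
          · exact ⟨(h ⟨z, hz.2⟩).mp hz.1, M.mul_mem (M.mul_mem m.2 hz.2) (M.inv_mem m.2)⟩
          · have hzM : z ∈ M := by
              have := M.mul_mem (M.mul_mem (M.inv_mem m.2) hz.2) m.2
              simpa [mul_assoc] using this
            exact ⟨(h ⟨z, hzM⟩).mpr hz.1, hzM⟩
        · exact ⟨fun hz => ((h z).mp ⟨hz, z.2⟩).1, fun hz => ((h z).mpr ⟨hz, (m * z * m⁻¹).2⟩).1⟩
      · have hDn : D.Normal := Subgroup.normalizer_eq_top_iff.mp e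
        have hDbot : D = ⊥ := eq_bot_iff.mpr fun z hz => Subgroup.mem_bot.mpr (hfaith z fun c => by
          obtain ⟨g, rfl⟩ := exists_smul_eq G a c
          refine mem_stab.mp (le_stab _ (mem_smul.mpr ?_))
          have h := (hDn.conj_mem z hz g⁻¹).1
          rwa [inv_inv] at h)
        have hPbot : (P : Subgroup M) = ⊥ := eq_bot_iff.mpr fun z hz => Subgroup.mem_bot.mpr (Subtype.ext
          (Subgroup.mem_bot.mp (hDbot ▸ (⟨by rw [hPD] at hz; exact hz, z.2⟩ : (z : G) ∈ D))))
        have h1 := P.not_dvd_index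
        rw [show (P : Subgroup M) = ⊥ from hPbot, Subgroup.index_bot] at h1
        exact h1 h3
    · obtain ⟨S⟩ := (Sylow.nonempty : Nonempty (Sylow 11 M))
      set R := (S : Subgroup M).map M.subtype with hR
      set N := Subgroup.normalizer (R : Set G) with hN
      have hfr : N ⊔ M = ⊤ := Sylow.normalizer_sup_eq_top S
      have hNidx : ¬ 3 ∣ N.index := by
        intro h
        refine h3 (h.trans ?_)
        set o : G ⧸ N := QuotientGroup.mk 1
        have huniv : orbit M o = Set.univ := Set.eq_univ_of_forall fun z => by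
          induction z using QuotientGroup.induction_on with
          | _ g =>
            obtain ⟨m, hm, s, hs, rfl⟩ :=
              Subgroup.mem_sup_of_normal_left.mp ((sup_comm N M ▸ hfr : M ⊔ N = ⊤).ge (Subgroup.mem_top g))
            refine ⟨⟨m, hm⟩, ?_⟩
            change (QuotientGroup.mk (m * 1) : G ⧸ N) = QuotientGroup.mk (m * s)
            rw [QuotientGroup.eq, mul_one, inv_mul_cancel_left]
            exact hs
        rw [Subgroup.index, ← Set.ncard_univ, ← huniv, ← index_stabilizer]
        exact Subgroup.index_dvd_card _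
      obtain ⟨a, -, haN⟩ := SingularClass.exists_sylow_le (H := N) hNidx (Q := (⊥ : Subgroup G))
        IsPGroup.of_bot bot_le
      set O := orbit R a
      have haO : a ∈ O := mem_orbit_self a
      have hinv : ∀ q : (a : Subgroup G), ∀ c ∈ O, q • c ∈ O := by
        rintro q _ ⟨⟨r, hr⟩, rfl⟩
        refine ⟨⟨q * r * (q : G)⁻¹, (Subgroup.mem_normalizer_iff.mp (haN q.2) r).mp hr⟩, ?_⟩
        change ((q : G) * r * (q : G)⁻¹) • a = (q : G) • r • a
        rw [mul_smul, mul_smul, mem_stab.mp (le_stab a (inv_mem q.2))]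
      have hmod := invariant_mod_three hn haO hinv
      obtain ⟨k, hk⟩ := (S.isPGroup'.map M.subtype).index (stabilizer R a)
      have hOk : O.ncard = 11 ^ k := by rw [← index_stabilizer]; exact hk
      have hk0 : k ≠ 0 := by
        rintro rfl
        rw [pow_zero, Subgroup.index_eq_one] at hk
        have hle : (S : Subgroup M) ≤ (stabilizer G a).subgroupOf M := fun z hz =>
          hk.ge (Subgroup.mem_top (⟨(z : G), ⟨z, hz, rfl⟩⟩ : R))
        exact S.not_dvd_index (dvd_trans (by rw [hindex a]; norm_num) (Subgroup.index_dvd_of_le hle))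
      have hk22 : 11 ^ k ≤ 22 := by
        rw [← hOk, ← hn, ← Set.ncard_univ]
        exact Set.ncard_le_ncard (Set.subset_univ _)
      rcases k with _ | _ | k
      · exact hk0 rfl
      · rw [hOk] at hmod; norm_num at hmod
      · have : 11 ^ 2 ≤ 11 ^ (k + 1 + 1) := Nat.pow_le_pow_right (by norm_num) (by omega)
        norm_num at this
        omega⟩
  exact not_simple hn

end Cfsg.Agent.H90.Sylow22
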