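import Cfsg.Agent.H90.Sylow22.Three

/-! No simple group has twenty-two Sylow `3`-subgroups. -/

set_option autoImplicit false
open scoped Classical

namespace Cfsg.Agent.H90.Sylow22

open MulAction

noncomputable section

variable {G : Type*} [Group G] [Finite G]

theorem sylow_prime {p : ℕ} [Fact p.Prime] {H : Type*} [Group H] [Finite H] (h : p ∣ Nat.card H) :
    ∃ z : H, orderOf z = p := exists_prime_orderOf_dvd_card' p h

/-- No simple group has twenty-two Sylow `3`-subgroups. -/
theorem not_simple [IsSimpleGroup G] (hn : Nat.card (Sylow 3 G) = 22) : False := by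
  haveI := Fact.mk Nat.prime_three
  obtain ⟨hmod, ⟨t, a, b, hba, ht2, hfix⟩, hG⟩ := eleven_data hn
  have h3 := card_three hn
  have hta : t • a = a := mem_fixes.mp (hfix ▸ Finset.mem_insert_self a {b})
  have htb : t • b = b := mem_fixes.mp (hfix ▸ Finset.mem_insert_of_mem (Finset.mem_singleton_self b))
  have hfree : ∀ (e : Sylow 3 G) (q : G), q ∈ (e : Subgroup G) → ∀ c, c ≠ e → q • c = c → q = 1 := by
    intro e q hq c hce hqc
    have hbot : ((e : Subgroup G) ⊓ c) = ⊥ := by
      have h := card_mul_typ e c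
      have hpos : 0 < Nat.card ((e : Subgroup G) ⊓ c : Subgroup G) := Nat.card_pos
      rcases typ_cases hn hce with e' | e' <;> rw [e', h3 e] at h
      · exact Subgroup.eq_bot_of_card_eq _ (by omega)
      · omega
    have : q ∈ (e : Subgroup G) ⊓ c :=
      ⟨hq, mem_of_pow_mem hqc (k := 1) (by rw [pow_one]; exact mem_pow_three (h3 e) hq)⟩
    rwa [hbot, Subgroup.mem_bot] at this
  have htyp : ∀ e c : Sylow 3 G, c ≠ e → typ e c = 3 := by
    intro e c hce
    have h := card_mul_typ e c
    have hpos : 0 < Nat.card ((e : Subgroup G) ⊓ c : Subgroup G) := Nat.card_pos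
    rcases typ_cases hn hce with e' | e'
    · exact e'
    · rw [e', h3 e] at h; omega
  set C := Subgroup.centralizer ((a : Subgroup G) : Set G) with hC
  have hCS : C ≤ stabilizer G a := by
    rw [Sylow.stabilizer_eq_normalizer]; exact Subgroup.centralizer_le_normalizer _
  have hcomm : ∀ g ∈ C, ∀ q ∈ (a : Subgroup G), g * q = q * g := fun g hg q hq =>
    (Subgroup.mem_centralizer_iff.mp hg q hq).symm
  obtain ⟨x0, hx0o⟩ := sylow_prime (p := 3) (H := (a : Subgroup G)) (by rw [h3 a])
  set x : G := (x0 : G) with hxdef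
  have hxa : x ∈ (a : Subgroup G) := x0.2
  have hxo : orderOf x = 3 := by rw [hxdef, Subgroup.orderOf_coe, hx0o]
  have hxgen : Subgroup.zpowers x = (a : Subgroup G) :=
    Subgroup.eq_of_le_of_card_ge (Subgroup.zpowers_le.mpr hxa) (by rw [Nat.card_zpowers, hxo, h3 a])
  have hx1 : x ≠ 1 := fun e => by rw [e, orderOf_one] at hxo; omega
  have hx3 : x ^ 3 = 1 := mem_pow_three (h3 a) hxa
  have hmemC : ∀ g, g * x = x * g → g ∈ C := fun g hg => Subgroup.mem_centralizer_iff.mpr fun q hq => by
    obtain ⟨i, rfl⟩ := Subgroup.mem_zpowers_iff.mp (hxgen.ge hq)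
    exact ((show Commute g x from hg).zpow_right i).eq.symm
  have hconj : ∀ g ∈ stabilizer G a, g ∈ C ∨ g * x * g⁻¹ = x⁻¹ := by
    intro g hg
    have hmem : g * x * g⁻¹ ∈ (a : Subgroup G) := by
      rw [← mem_stab.mp hg, mem_smul]; simpa [mul_assoc] using hxa
    obtain ⟨i, hi⟩ := Subgroup.mem_zpowers_iff.mp (hxgen.ge hmem)
    rw [← zpow_mod_orderOf, hxo] at hi
    have h0 : 0 ≤ i % (3 : ℤ) := Int.emod_nonneg i (by norm_num)
    have h2 : i % (3 : ℤ) < 3 := Int.emod_lt_of_pos i (by norm_num)
    push_cast at hi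
    rcases (by omega : i % (3 : ℤ) = 0 ∨ i % (3 : ℤ) = 1 ∨ i % (3 : ℤ) = 2) with e | e | e <;> rw [e] at hi
    · rw [zpow_zero] at hi
      exact absurd (conj_eq_one_iff.mp hi.symm) hx1
    · rw [zpow_one] at hi
      exact Or.inl (hmemC g (mul_inv_eq_iff_eq_mul.mp hi.symm))
    · refine Or.inr (hi.symm.trans (eq_inv_of_mul_eq_one_left ?_))
      rw [show x ^ (2 : ℤ) * x = x ^ 3 by group, hx3]
  have htC : t ∉ C := fun h => by
    have h1 : t • x • b = x • b := by rw [← mul_smul, hcomm t h x hxa, mul_smul, htb]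
    rcases inter_fix hfix h1 with e | e
    · exact hba (MulAction.injective x (e.trans (mem_stab.mp (le_stab a hxa)).symm))
    · exact hx1 (hfree a x hxa b hba e)
  have htx : t * x * t⁻¹ = x⁻¹ := (hconj t (mem_stab.mpr hta)).resolve_left htC
  have hindex : C.relIndex (stabilizer G a) = 2 := by
    rw [Subgroup.relIndex, Subgroup.index_eq_two_iff]
    refine ⟨⟨t, mem_stab.mpr hta⟩, fun g => ?_⟩
    rw [Subgroup.mem_subgroupOf, Subgroup.mem_subgroupOf, Subgroup.coe_mul]
    rcases hconj g g.2 with h | h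
    · refine Or.inr ⟨h, fun h' => htC ?_⟩
      have := mul_mem (inv_mem h) h'
      rwa [inv_mul_cancel_left] at this
    · refine Or.inl ⟨hmemC _ (mul_inv_eq_iff_eq_mul.mp ?_), fun h' => hx1 ?_⟩
      · rw [show (g : G) * t * x * ((g : G) * t)⁻¹ = g * (t * x * t⁻¹) * (g : G)⁻¹ by group, htx,
          ← conj_inv, h, inv_inv]
      · rw [hcomm g h' x hxa, mul_inv_cancel_right] at h
        have h2 : x * x = 1 := mul_eq_one_iff_eq_inv.mpr h
        calc x = x ^ 3 * (x * x)⁻¹ := by group
          _ = 1 := by rw [hx3, h2, inv_one, mul_one]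
  have hcardS : Nat.card (stabilizer G a) = 2 * Nat.card C := by
    have := Subgroup.card_mul_index (C.subgroupOf (stabilizer G a))
    rw [Nat.card_congr (Subgroup.subgroupOfEquivOfLe hCS).toEquiv] at this
    rw [← this, ← Subgroup.relIndex, hindex, mul_comm]
  -- the action on the seven classes
  let X := {c : Sylow 3 G // c ≠ a}
  let s : Setoid X :=
    { r := fun c d => ∃ q ∈ (a : Subgroup G), q • c.1 = d.1
      iseqv := ⟨fun c => ⟨1, one_mem _, one_smul _ _⟩,
        fun {c d} ⟨q, hq, e⟩ => ⟨q⁻¹, inv_mem hq, by rw [← e, inv_smul_smul]⟩,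
        fun {c d e} ⟨q, hq, h⟩ ⟨q', hq', h'⟩ => ⟨q' * q, mul_mem hq' hq, by rw [mul_smul, h, h']⟩⟩ }
  let Q := Quotient s
  haveI : Fintype Q := Fintype.ofFinite _
  have hfib : ∀ c : X, (Finset.univ.filter fun d : X => Quotient.mk s d = Quotient.mk s c).card = 3 := by
    intro c
    have hne : ∀ q ∈ (a : Subgroup G), q • c.1 ≠ a := fun q hq e =>
      c.2 (MulAction.injective q (e.trans (mem_stab.mp (le_stab a hq)).symm))
    rw [← Fintype.card_subtype, ← Nat.card_eq_fintype_card, ← h3 a]
    symm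
    refine Nat.card_eq_of_bijective (fun q => ⟨⟨(q : G) • c.1, hne q q.2⟩,
      (Quotient.sound ⟨(q : G)⁻¹, inv_mem q.2, inv_smul_smul _ _⟩)⟩) ⟨fun q q' h => ?_, fun d => ?_⟩
    · have h' : (q : G) • c.1 = (q' : G) • c.1 := congrArg (fun z => z.1.1) h
      have := hfree a ((q' : G)⁻¹ * q) (mul_mem (inv_mem q'.2) q.2) c.1 c.2
        (by rw [mul_smul, h', inv_smul_smul])
      exact Subtype.ext (inv_mul_eq_one.mp this).symm
    · obtain ⟨q, hq, e⟩ := Quotient.exact d.2.symm
      exact ⟨⟨q, hq⟩, Subtype.ext (Subtype.ext e)⟩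
  have hQ : Fintype.card Q = 7 := by
    have h := Finset.card_eq_sum_card_fiberwise (f := fun d : X => Quotient.mk s d)
      (s := Finset.univ) (t := (Finset.univ : Finset Q)) fun _ _ => Finset.mem_univ _
    rw [Finset.sum_const_nat (m := 3) fun z _ => by
      induction z using Quotient.inductionOn with
      | _ c => exact hfib c] at h
    rw [Finset.card_univ, Finset.card_univ] at h
    have hX : Fintype.card X = 21 := by
      rw [Fintype.card_subtype_compl, Fintype.card_subtype_eq, ← Nat.card_eq_fintype_card, hn]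
    change Fintype.card (Quotient s) = 7
    omega
  have hmov : ∀ g ∈ C, ∀ c : X, g • c.1 ≠ a := fun g hg c e =>
    c.2 (MulAction.injective g (e.trans (mem_stab.mp (hCS hg)).symm))
  let fQ : C → Q → Q := fun g => Quotient.map (fun c : X => (⟨(g : G) • c.1, hmov g g.2 c⟩ : X))
    fun c d ⟨q, hq, e⟩ => ⟨q, hq, by
      change q • (g : G) • c.1 = (g : G) • d.1
      rw [← e, ← mul_smul, ← mul_smul, hcomm g g.2 q hq]⟩
  letI : MulAction C Q :=
    { smul := fQ
      one_smul := fun z => by
        induction z using Quotient.inductionOn with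
        | _ c => exact congrArg (Quotient.mk s) (Subtype.ext (one_smul G c.1))
      mul_smul := fun g h z => by
        induction z using Quotient.inductionOn with
        | _ c => exact congrArg (Quotient.mk s) (Subtype.ext (mul_smul (g : G) (h : G) c.1)) }
  let ρ : C →* Equiv.Perm Q := MulAction.toPermHom C Q
  have hρ : ∀ (g : C) (c : X), ρ g (Quotient.mk s c) = Quotient.mk s ⟨(g : G) • c.1, hmov g g.2 c⟩ :=
    fun g c => rfl
  have haC : (a : Subgroup G) ≤ C := fun q hq => hmemC q (by
    obtain ⟨i, rfl⟩ := Subgroup.mem_zpowers_iff.mp (hxgen.ge hq)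
    exact ((Commute.refl x).zpow_left i).eq)
  have hker : ρ.ker = (a : Subgroup G).subgroupOf C := by
    ext g
    rw [MonoidHom.mem_ker, Subgroup.mem_subgroupOf]
    refine ⟨fun h => ?_, fun h => Equiv.ext fun z => ?_⟩
    · refine mem_of_pow_mem (hCS g.2) (k := 1) (eq_one_of_fix_all hn fun c => ?_)
      rw [pow_one]
      by_cases hca : c = a
      · rw [hca]; exact pow_smul_eq (mem_stab.mp (hCS g.2)) 3
      obtain ⟨q, hq, e⟩ := Quotient.exact ((hρ g ⟨c, hca⟩).symm.trans (Equiv.congr_fun h _))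
      change q • (g : G) • c = c at e
      have e' : (g : G) • c = q⁻¹ • c := eq_inv_smul_iff.mpr e
      have hgq : Commute (g : G) q⁻¹ := hcomm g g.2 _ (inv_mem hq)
      have hpow : ∀ n : ℕ, (g : G) ^ n • c = q⁻¹ ^ n • c := by
        intro n
        induction n with
        | zero => simp
        | succ n ih =>
          rw [pow_succ', mul_smul, ih, ← mul_smul, (hgq.pow_right n).eq, mul_smul, e', ← mul_smul,
            ← pow_succ]
      rw [hpow, inv_pow, mem_pow_three (h3 a) hq, inv_one, one_smul]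
    · induction z using Quotient.inductionOn with
      | _ c =>
        rw [hρ]
        exact Quotient.sound ⟨(g : G)⁻¹, inv_mem h, inv_smul_smul _ _⟩
  set m := Nat.card ρ.range with hm
  have hCcard : Nat.card C = 3 * m := by
    have := ρ.ker.card_mul_index
    rw [Subgroup.index_ker, hker, Nat.card_congr (Subgroup.subgroupOfEquivOfLe haC).toEquiv, h3 a] at this
    exact this.symm
  have hGm : Nat.card G = 132 * m := by rw [hG a, hcardS, hCcard]; ring
  have hm5040 : m ∣ 5040 := by
    have := Subgroup.card_subgroup_dvd_card ρ.range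
    rw [Nat.card_eq_fintype_card (α := Equiv.Perm Q), Fintype.card_perm, hQ] at this
    exact this
  have hm3 : ¬ 3 ∣ m := fun h => by
    have h1 := (a : Subgroup G).index_mul_card
    rw [h3 a, hGm] at h1
    have h2 : (a : Subgroup G).index = 44 * m := by omega
    exact a.not_dvd_index (h2 ▸ h.mul_left 44)
  have hm11 : (6 * m) % 11 = 1 := by
    have := hmod a
    rw [hcardS, hCcard, ← mul_assoc] at this
    exact this
  -- involutions of `C`
  have hinvol : ∀ u : C, (u : G) ^ 2 = 1 → (u : G) ≠ 1 →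
      (fixes (u : G)).card = 10 ∧ (ρ u).support.card = 4 := by
    intro u hu2 hu1
    have huu : (u : G) * u = 1 := by rw [← pow_two]; exact hu2
    have hiff : ∀ c : X, (u : G) • c.1 = c.1 ↔ ρ u (Quotient.mk s c) = Quotient.mk s c := by
      intro c
      rw [hρ]
      refine ⟨fun h => congrArg (Quotient.mk s) (Subtype.ext h), fun h => ?_⟩
      obtain ⟨q, hq, e⟩ := Quotient.exact h
      change q • (u : G) • c.1 = c.1 at e
      have e' : (u : G) • c.1 = q⁻¹ • c.1 := eq_inv_smul_iff.mpr e
      have h2 : (q⁻¹ * q⁻¹) • c.1 = c.1 := by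
        conv_rhs => rw [← one_smul G c.1, ← huu, mul_smul, e', ← mul_smul, hcomm u u.2 _ (inv_mem hq),
          mul_smul, e']
        rw [mul_smul]
      have h4 := hfree a _ (mul_mem (inv_mem hq) (inv_mem hq)) c.1 c.2 h2
      have hq1 : q = 1 := by
        calc q = q ^ 3 * (q⁻¹ * q⁻¹) := by group
          _ = 1 := by rw [mem_pow_three (h3 a) hq, h4, mul_one]
      rw [e', hq1, inv_one, one_smul]
    let F : Finset Q := Finset.univ.filter fun z => ρ u z = z
    have hF : (fixes (u : G)).card = 1 + 3 * F.card := by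
      have ha : a ∈ fixes (u : G) := mem_fixes.mpr (mem_stab.mp (hCS u.2))
      rw [← Finset.card_erase_add_one ha, add_comm]
      congr 1
      have h := Finset.card_eq_sum_card_fiberwise (f := fun d : X => Quotient.mk s d)
        (s := Finset.univ.filter fun d : X => ρ u (Quotient.mk s d) = Quotient.mk s d) (t := F)
        fun d hd => by simpa [F] using hd
      rw [Finset.sum_const_nat (m := 3) fun z hz => by
        induction z using Quotient.inductionOn with
        | _ c =>
          rw [Finset.filter_filter]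
          refine (congrArg Finset.card (Finset.filter_congr fun d _ => ⟨fun h => h.2, fun h => ⟨?_, h⟩⟩)).trans (hfib c)
          rw [h]; simpa [F] using hz] at h
      rw [mul_comm, ← h]
      refine Finset.card_bij' (fun c hc => ⟨c, (Finset.mem_erase.mp hc).1⟩) (fun d _ => d.1) ?_ ?_ ?_ ?_
      · intro c hc
        rw [Finset.mem_filter]
        exact ⟨Finset.mem_univ _, (hiff _).mp (mem_fixes.mp (Finset.mem_erase.mp hc).2)⟩
      · intro d hd
        exact Finset.mem_erase.mpr ⟨d.2, mem_fixes.mpr ((hiff d).mpr (Finset.mem_filter.mp hd).2)⟩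
      · intro c _; rfl
      · intro d _; rfl
    have hsupp : (ρ u).support = Fᶜ := by ext z; simp [F]
    have hFle : F.card ≤ 7 := hQ ▸ Finset.card_le_univ F
    have hF7 : F.card ≠ 7 := fun h => hu1 (eq_one_of_fix_all hn fun c => by
      have hall : fixes (u : G) = Finset.univ := Finset.eq_univ_of_card _ (by
        rw [hF, h, ← Nat.card_eq_fintype_card, hn])
      exact mem_fixes.mp (hall ▸ Finset.mem_univ c))
    have h4 := four_dvd_moved hn hu2
    rw [hF] at h4
    rw [hsupp, Finset.card_compl, hQ, hF]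
    omega
  have hno2 : ∀ σ ∈ ρ.range, σ.support.card = 2 → False := by
    rintro σ ⟨g, rfl⟩ h2
    obtain ⟨y, z, hyz, hσ⟩ := Equiv.Perm.card_support_eq_two.mp h2
    have hσ2 : (ρ g) ^ 2 = 1 := by rw [hσ, pow_two, Equiv.swap_mul_self]
    have hσ3 : (ρ g) ^ 3 = ρ g := by rw [pow_succ, hσ2, one_mul]
    have hg2 : (g : G) ^ 2 ∈ (a : Subgroup G) := by
      have : g ^ 2 ∈ ρ.ker := by rw [MonoidHom.mem_ker, map_pow, hσ2]
      rw [hker, Subgroup.mem_subgroupOf] at this
      exact this
    have hu2 : ((g ^ 3 : C) : G) ^ 2 = 1 := by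
      rw [SubgroupClass.coe_pow, ← pow_mul, pow_mul (g : G) 2 3]; exact mem_pow_three (h3 a) hg2
    by_cases hu1 : ((g ^ 3 : C) : G) = 1
    · have hg31 : g ^ 3 = 1 := Subtype.ext hu1
      have : ρ g = 1 := by rw [← hσ3, ← map_pow, hg31, map_one]
      rw [this, Equiv.Perm.support_one, Finset.card_empty] at h2
      omega
    · have := (hinvol (g ^ 3) hu2 hu1).2
      rw [map_pow, hσ3, h2] at this
      omega
  have hm2 : m = 2 := by
    have hdiv : ∀ d ∈ Nat.divisors 560, 6 * d % 11 = 1 → d = 2 ∨ d = 35 ∨ d = 112 := by decide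
    have h9 : Nat.Coprime m 9 := (Nat.prime_three.coprime_iff_not_dvd.mpr hm3).symm.pow_right 2
    have h560 : m ∣ 560 := h9.dvd_of_dvd_mul_left (show m ∣ 9 * 560 from hm5040)
    rcases hdiv m (Nat.mem_divisors.mpr ⟨h560, by norm_num⟩) hm11 with e | e | e
    · exact e
    · exfalso
      rw [e] at hm
      haveI h5 := Fact.mk (by norm_num : Nat.Prime 5)
      haveI h7 := Fact.mk (by norm_num : Nat.Prime 7)
      have hcard1 : Nat.card (Sylow 5 ρ.range) = 1 := by
        have h1 := card_sylow_modEq_one 5 ρ.range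
        obtain ⟨S⟩ := (Sylow.nonempty : Nonempty (Sylow 5 ρ.range))
        have h2 : Nat.card (Sylow 5 ρ.range) ∣ 35 := by
          rw [hm]; exact S.card_dvd_index.trans (Subgroup.index_dvd_card _)
        have h4 : ¬ 5 ∣ Nat.card (Sylow 5 ρ.range) := by
          rw [Nat.ModEq] at h1; omega
        have h3' := Nat.le_of_dvd (by norm_num) h2
        rw [Nat.ModEq] at h1
        generalize Nat.card (Sylow 5 ρ.range) = k at h1 h2 h4 h3' ⊢
        interval_cases k <;> omega
      obtain ⟨z, hz⟩ := sylow_prime (p := 5) (H := ρ.range) (by rw [← hm]; norm_num)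
      obtain ⟨y, hy⟩ := sylow_prime (p := 7) (H := ρ.range) (by rw [← hm]; norm_num)
      haveI : Subsingleton (Sylow 5 ρ.range) := (Nat.card_eq_one_iff_unique.mp hcard1).1
      obtain ⟨S, hS⟩ := (IsPGroup.of_card (n := 1) (by rw [Nat.card_zpowers, hz, pow_one]) :
        IsPGroup 5 (Subgroup.zpowers z)).exists_le_sylow
      haveI hSn : (S : Subgroup ρ.range).Normal := S.normal_of_subsingleton
      have hScard : Nat.card (S : Subgroup ρ.range) = 5 := by
        obtain ⟨k, hk⟩ := IsPGroup.iff_card.mp S.isPGroup'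
        have h1 := Subgroup.card_subgroup_dvd_card (S : Subgroup ρ.range)
        rw [← hm, hk] at h1
        have h2 : 5 ∣ Nat.card (S : Subgroup ρ.range) := by
          have h3' := Subgroup.card_dvd_of_le hS
          rwa [Nat.card_zpowers, hz] at h3'
        rw [hk] at h2
        rcases k with _ | _ | k
        · norm_num at h2
        · simpa using hk
        · exfalso
          have : 5 ^ 2 ∣ 35 := (pow_dvd_pow 5 (by omega)).trans h1
          norm_num at this
      have hcomm' : y * z = z * y := by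
        have hzS : z ∈ (S : Subgroup ρ.range) := hS (Subgroup.mem_zpowers z)
        let f : ρ.range →* MulAut (S : Subgroup ρ.range) := MulAut.conjNormal
        haveI : IsCyclic (S : Subgroup ρ.range) := isCyclic_of_prime_card hScard
        have hA : Nat.card (MulAut (S : Subgroup ρ.range)) = 4 := by
          rw [IsCyclic.card_mulAut, hScard, Nat.totient_prime h5.out]
        have h1 : orderOf (f y) ∣ 4 := hA ▸ orderOf_dvd_natCard _
        have h2 : orderOf (f y) ∣ 7 := hy ▸ orderOf_map_dvd f y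
        have hfy : f y = 1 := orderOf_eq_one_iff.mp (Nat.eq_one_of_dvd_coprimes (by norm_num : Nat.Coprime 4 7) h1 h2)
        have h3' := congrArg Subtype.val (MulEquiv.congr_fun hfy ⟨z, hzS⟩)
        rw [MulAut.conjNormal_apply] at h3'
        exact mul_inv_eq_iff_eq_mul.mp h3'
      have hy7 : (y : Equiv.Perm Q) ^ 7 = 1 := by
        rw [← SubgroupClass.coe_pow, ← hy, pow_orderOf_eq_one, OneMemClass.coe_one]
      have hz5 : (z : Equiv.Perm Q) ^ 5 ^ 1 = 1 := by
        rw [pow_one, ← SubgroupClass.coe_pow, ← hz, pow_orderOf_eq_one, OneMemClass.coe_one]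
      obtain ⟨d, hd⟩ := Equiv.Perm.exists_fixed_point_of_prime (p := 5) (n := 1) (by rw [hQ]; norm_num) hz5
      have hyo : orderOf (y : Equiv.Perm Q) = 7 := by rw [Subgroup.orderOf_coe, hy]
      have hcyc : (y : Equiv.Perm Q).IsCycle :=
        Equiv.Perm.isCycle_of_prime_order'' (by rw [hQ]; norm_num) (by rw [hQ, hyo])
      have hfull : (y : Equiv.Perm Q).support = Finset.univ := by
        rw [← Finset.card_eq_iff_eq_univ, ← hcyc.orderOf, hyo, hQ]
      have hall : ∀ c, (z : Equiv.Perm Q) c = c := by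
        intro c
        obtain ⟨i, hi⟩ := hcyc.exists_pow_eq (x := d) (y := c)
          (Equiv.Perm.mem_support.mp (hfull ▸ Finset.mem_univ d))
          (Equiv.Perm.mem_support.mp (hfull ▸ Finset.mem_univ c))
        have hc : Commute (z : Equiv.Perm Q) ((y : Equiv.Perm Q) ^ i) :=
          (show Commute (z : Equiv.Perm Q) y from (congrArg Subtype.val hcomm').symm).pow_right i
        rw [← hi, ← Equiv.Perm.mul_apply, hc.eq, Equiv.Perm.mul_apply, hd]
      have : z = 1 := Subtype.ext (Equiv.ext hall)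
      rw [this, orderOf_one] at hz
      omega
    · exfalso
      rw [e] at hm
      haveI := Fact.mk Nat.prime_two
      obtain ⟨S⟩ := (Sylow.nonempty : Nonempty (Sylow 2 ρ.range))
      set S' := (S : Subgroup ρ.range).map ρ.range.subtype
      have hS'c : Nat.card S' = 16 := by
        rw [Subgroup.card_map_of_injective ρ.range.subtype_injective, S.card_eq_multiplicity, ← hm,
          show Nat.factorization 112 2 = 4 by
            rw [show (112 : ℕ) = 2 ^ 4 * 7 by norm_num, Nat.factorization_mul (by norm_num) (by norm_num),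
              Nat.Prime.factorization_pow Nat.prime_two, Nat.Prime.factorization (by norm_num : Nat.Prime 7)]
            simp]
        norm_num
      have hS' : IsPGroup 2 S' := S.isPGroup'.map _
      have hidx : ¬ 2 ∣ S'.index := by
        have h1 := S'.index_mul_card
        rw [hS'c, Nat.card_eq_fintype_card (α := Equiv.Perm Q), Fintype.card_perm, hQ] at h1
        norm_num [Nat.factorial] at h1
        omega
      obtain ⟨c, d, hcd⟩ := Fintype.exists_pair_of_one_lt_card (α := Q) (by rw [hQ]; norm_num)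
      have hsw : (Equiv.swap c d) ^ 2 = 1 := by rw [pow_two, Equiv.swap_mul_self]
      obtain ⟨T', hT'⟩ := (IsPGroup.of_card (n := 1) (by
        rw [Nat.card_zpowers, orderOf_eq_prime hsw (fun e => hcd (by simpa using (Equiv.congr_fun e c).symm)), pow_one]) :
        IsPGroup 2 (Subgroup.zpowers (Equiv.swap c d))).exists_le_sylow
      obtain ⟨g, hg⟩ := exists_smul_eq (Equiv.Perm Q) T' (hS'.toSylow hidx)
      have hmem : g * Equiv.swap c d * g⁻¹ ∈ S' := by
        have h1 : g * Equiv.swap c d * g⁻¹ ∈ ((g • T' : Sylow 2 (Equiv.Perm Q)) : Subgroup (Equiv.Perm Q)) :=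
          mem_smul.mpr (by simpa [mul_assoc] using hT' (Subgroup.mem_zpowers _))
        rw [hg] at h1
        exact h1
      refine hno2 _ (Subgroup.map_subtype_le _ hmem) ?_
      rw [Equiv.Perm.card_support_conj, Equiv.Perm.card_support_swap hcd]
  -- the case of order `264`
  haveI := Fact.mk Nat.prime_two
  obtain ⟨u, hu⟩ := sylow_prime (p := 2) (H := C) (by rw [hCcard, hm2]; norm_num)
  have hu2 : (u : G) ^ 2 = 1 := by rw [← SubgroupClass.coe_pow, ← hu, pow_orderOf_eq_one, OneMemClass.coe_one]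
  have hu1 : (u : G) ≠ 1 := fun e => by
    rw [show u = 1 from Subtype.ext e, orderOf_one] at hu; omega
  have hfix10 := (hinvol u hu2 hu1).1
  have hγ : ∀ γ ∈ fixes (u : G), ∀ q ∈ (γ : Subgroup G), (u : G) * q = q * u := by
    intro γ hγ q0 hq0
    rw [mem_fixes] at hγ
    by_contra hne
    have hq0' : (u : G) * q0 * (u : G)⁻¹ ∈ (γ : Subgroup G) := by
      rw [← hγ, mem_smul]; simpa [mul_assoc] using hq0
    have hq01 : q0 ≠ 1 := fun e => hne (by rw [e, mul_one, one_mul])
    have hgen : Subgroup.zpowers q0 = (γ : Subgroup G) :=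
      Subgroup.eq_of_le_of_card_ge (Subgroup.zpowers_le.mpr hq0) (by
        rw [Nat.card_zpowers, orderOf_eq_prime (mem_pow_three (h3 γ) hq0) hq01, h3 γ])
    have hu2' : (u : G) * u = 1 := by rw [← pow_two]; exact hu2
    have hinv0 : (u : G) * q0 * (u : G)⁻¹ = q0⁻¹ := by
      obtain ⟨i, hi⟩ := Subgroup.mem_zpowers_iff.mp (hgen.ge hq0')
      rw [← zpow_mod_orderOf, orderOf_eq_prime (mem_pow_three (h3 γ) hq0) hq01] at hi
      have h0 : 0 ≤ i % (3 : ℤ) := Int.emod_nonneg i (by norm_num)
      have h2 : i % (3 : ℤ) < 3 := Int.emod_lt_of_pos i (by norm_num)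
      push_cast at hi
      rcases (by omega : i % (3 : ℤ) = 0 ∨ i % (3 : ℤ) = 1 ∨ i % (3 : ℤ) = 2) with e | e | e <;> rw [e] at hi
      · rw [zpow_zero] at hi
        exact absurd (conj_eq_one_iff.mp hi.symm) hq01
      · rw [zpow_one] at hi
        exact absurd (mul_inv_eq_iff_eq_mul.mp hi.symm) hne
      · refine hi.symm.trans (eq_inv_of_mul_eq_one_left ?_)
        rw [show q0 ^ (2 : ℤ) * q0 = q0 ^ 3 by group, mem_pow_three (h3 γ) hq0]
    have hinv : ∀ q ∈ (γ : Subgroup G), (u : G) * q * (u : G)⁻¹ = q⁻¹ := by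
      intro q hq
      obtain ⟨i, rfl⟩ := Subgroup.mem_zpowers_iff.mp (hgen.ge hq)
      rw [← conj_zpow, hinv0, inv_zpow]
    let A : Finset (Sylow 3 G) := (fixes (u : G)).erase γ
    let f : {c // c ∈ A} × (γ : Subgroup G) → {d : Sylow 3 G // d ≠ γ} := fun z =>
      ⟨(z.2 : G) • z.1.1, fun e => (Finset.mem_erase.mp z.1.2).1
        (MulAction.injective (z.2 : G) (e.trans (mem_stab.mp (le_stab γ z.2.2)).symm))⟩
    haveI : Fintype (γ : Subgroup G) := Fintype.ofFinite _
    have hf : Function.Injective f := by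
      rintro ⟨⟨c, hc⟩, q, hq⟩ ⟨⟨c', hc'⟩, q', hq'⟩ h
      have h' : q • c = q' • c' := congrArg Subtype.val h
      obtain ⟨hcne, hcfix⟩ := Finset.mem_erase.mp hc
      have hc'fix := mem_fixes.mp (Finset.mem_erase.mp hc').2
      rw [mem_fixes] at hcfix
      set w := q'⁻¹ * q
      have hwγ : w ∈ (γ : Subgroup G) := mul_mem (inv_mem hq') hq
      have hwc : c' = w • c := by rw [mul_smul, h', inv_smul_smul]
      have h5 : w⁻¹ • c = w • c := by
        rw [← hinv w hwγ, mul_smul, mul_smul, inv_smul_eq_iff.mpr hcfix.symm, ← hwc, hc'fix]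
      have h6 : (w * w) • c = c := by rw [mul_smul, ← h5, smul_inv_smul]
      have h7 := hfree γ (w * w) (mul_mem hwγ hwγ) c hcne h6
      have hw1 : w = 1 := by
        calc w = w ^ 3 * (w * w)⁻¹ := by group
          _ = 1 := by rw [mem_pow_three (h3 γ) hwγ, h7, inv_one, mul_one]
      have hqq : q = q' := (inv_mul_eq_one.mp hw1).symm
      subst hqq
      rw [hw1, one_smul] at hwc
      subst hwc
      rfl
    have hcard := Fintype.card_le_of_injective f hf
    rw [Fintype.card_prod, Fintype.card_coe, ← Nat.card_eq_fintype_card (α := (γ : Subgroup G)), h3 γ,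
      Finset.card_erase_of_mem (mem_fixes.mpr hγ), hfix10, Fintype.card_subtype_compl,
      Fintype.card_subtype_eq, ← Nat.card_eq_fintype_card (α := Sylow 3 G), hn] at hcard
    omega
  set H := Subgroup.centralizer ({(u : G)} : Set G) with hH
  set O := orbit H a
  have hmemH : ∀ γ ∈ fixes (u : G), (γ : Subgroup G) ≤ H := fun γ hγ' q hq =>
    Subgroup.mem_centralizer_singleton_iff.mpr (hγ γ hγ' q hq).symm
  have haf : a ∈ fixes (u : G) := mem_fixes.mpr (mem_stab.mp (hCS u.2))
  have hOsub : ∀ c ∈ O, c ∈ fixes (u : G) := by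
    rintro _ ⟨⟨g, hg⟩, rfl⟩
    rw [mem_fixes]
    change (u : G) • g • a = g • a
    rw [← mul_smul, ← Subgroup.mem_centralizer_singleton_iff.mp hg, mul_smul, mem_fixes.mp haf]
  have hinv : ∀ γ ∈ fixes (u : G), ∀ q : (γ : Subgroup G), ∀ c ∈ O, q • c ∈ O := by
    rintro γ hγ' q _ ⟨⟨g, hg⟩, rfl⟩
    exact ⟨⟨q * g, mul_mem (hmemH γ hγ' q.2) hg⟩, mul_smul (q : G) g a⟩
  have hmod3 : ∀ γ ∈ fixes (u : G), 3 ∣ Nat.card ↥(O \ {γ}) := by
    intro γ hγ'
    refine dvd_card (H := (γ : Subgroup G)) _ 3 (fun q c hc => ⟨hinv γ hγ' q c hc.1, fun e => hc.2 ?_⟩)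
      fun c hc => ?_
    · exact MulAction.injective (q : G) (Eq.trans e (mem_stab.mp (le_stab γ q.2)).symm)
    · rw [card_fin_orbit]; exact htyp γ c hc.2
  have haO : a ∈ O := mem_orbit_self a
  have hall : ∀ γ ∈ fixes (u : G), γ ∈ O := by
    intro γ hγ'
    by_contra hγO
    have h1 := hmod3 γ hγ'
    have h2 := hmod3 a haf
    have hpos : 0 < O.ncard := (Set.ncard_pos (Set.toFinite O)).mpr ⟨a, haO⟩
    rw [Set.diff_singleton_eq_self hγO, Nat.card_coe_set_eq] at h1
    rw [Nat.card_coe_set_eq, Set.ncard_diff_singleton_of_mem haO] at h2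
    omega
  have hO10 : O.ncard = 10 := by
    rw [← hfix10, ← Set.ncard_coe_finset]
    congr 1
    ext c
    exact ⟨hOsub c, hall c⟩
  rw [← index_stabilizer] at hO10
  have h1 : 10 ∣ Nat.card H := hO10 ▸ Subgroup.index_dvd_card _
  have h2 := h1.trans H.card_subgroup_dvd_card
  rw [hGm, hm2] at h2
  omega

end

end Cfsg.Agent.H90.Sylow22
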