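import Cfsg.Agent.H90.Sylow22.Eleven

/-! Twenty-two Sylow `3`-subgroups in a simple group: the contradiction. -/

set_option autoImplicit false
open scoped Classical

namespace Cfsg.Agent.H90.Sylow22

open MulAction

noncomputable section

variable {G : Type*} [Group G] [Finite G]

theorem card_fin_orbit (a c : Sylow 3 G) : Nat.card (orbit (a : Subgroup G) c) = typ a c := card_orbit a c

/-- The stabilisers are maximal. -/
theorem max_stab (hn : Nat.card (Sylow 3 G) = 22) {a : Sylow 3 G} {H : Subgroup G}
    (h : stabilizer G a ≤ H) : H = stabilizer G a ∨ H = ⊤ := by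
  haveI := Fact.mk Nat.prime_three
  set O := orbit H a with hO
  have haO : a ∈ O := mem_orbit_self a
  have hinv : ∀ g : (a : Subgroup G), ∀ c ∈ O, g • c ∈ O := by
    intro g c hc
    obtain ⟨⟨x, hx⟩, rfl⟩ := hc
    exact ⟨⟨g * x, mul_mem (h (le_stab a g.2)) hx⟩, mul_smul (g : G) x a⟩
  have hmod : 3 ∣ Nat.card O - 1 := by
    have key : ∀ i, i ∣ Nat.card {c : Sylow 3 G | c ∈ O ∧ typ a c = i} := by
      intro i
      refine dvd_card (H := (a : Subgroup G)) _ i (fun g c hc => ⟨hinv g c hc.1, ?_⟩) fun c hc => ?_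
      · rw [← hc.2]
        change typ a ((g : G) • c) = typ a c
        rw [← typ_smul (g : G) a c, mem_stab.mp (le_stab a g.2)]
      · rw [card_fin_orbit]; exact hc.2
    have hsplit : O = insert a ({c : Sylow 3 G | c ∈ O ∧ typ a c = 3} ∪ {c | c ∈ O ∧ typ a c = 9}) := by
      ext c
      by_cases hca : c = a
      · simp [hca, haO]
      · simp only [Set.mem_insert_iff, hca, false_or, Set.mem_union, Set.mem_setOf_eq]
        exact ⟨fun hc => (typ_cases hn hca).imp (⟨hc, ·⟩) (⟨hc, ·⟩), fun hc => hc.elim And.left And.left⟩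
    have h3 := key 3
    have h9 := key 9
    rw [Nat.card_coe_set_eq] at h3 h9 ⊢
    rw [hsplit, Set.ncard_insert_of_notMem (fun hm => by
        rcases hm with hm | hm <;> · have := hm.2; rw [typ_self] at this; omega),
      Set.ncard_union_eq (Set.disjoint_left.mpr fun c h1 h2 => by
        have := h1.2; have := h2.2; omega)]
    omega
  have hrel : Nat.card O = (stabilizer G a).relIndex H := by
    rw [Nat.card_coe_set_eq, ← index_stabilizer]; rfl
  have hmul : (stabilizer G a).relIndex H * H.index = 22 := by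
    rw [Subgroup.relIndex_mul_index h, Sylow.stabilizer_eq_normalizer, ← a.card_eq_index_normalizer, hn]
  rw [hrel] at hmod
  have hdvd : (stabilizer G a).relIndex H ∣ 22 := ⟨_, hmul.symm⟩
  have hr : (stabilizer G a).relIndex H = 1 ∨ (stabilizer G a).relIndex H = 22 := by
    have hle := Nat.le_of_dvd (by norm_num) hdvd
    have hpos : 0 < (stabilizer G a).relIndex H := Nat.pos_of_ne_zero fun e => by
      rw [e, zero_mul] at hmul; omega
    generalize (stabilizer G a).relIndex H = r at hmod hdvd hle hpos ⊢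
    interval_cases r <;> omega
  rcases hr with e | e
  · exact Or.inl (le_antisymm (Subgroup.relIndex_eq_one.mp e) h)
  · rw [e] at hmul
    exact Or.inr (Subgroup.index_eq_one.mp (by omega))

theorem inter_fix {t : G} {a b c : Sylow 3 G} (hfix : fixes t = {a, b}) (hc : t • c = c) : c = a ∨ c = b := by
  have := mem_fixes.mpr hc
  rw [hfix] at this
  simpa using this

theorem mem_pow_three {a : Sylow 3 G} (h3 : Nat.card (a : Subgroup G) = 3) {q : G}
    (hq : q ∈ (a : Subgroup G)) : q ^ 3 = 1 := by
  have := pow_card_eq_one' (x := (⟨q, hq⟩ : (a : Subgroup G)))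
  rw [h3] at this
  exact congrArg Subtype.val this

/-- The Sylow subgroups have order three. -/
theorem card_three [IsSimpleGroup G] (hn : Nat.card (Sylow 3 G) = 22) (a : Sylow 3 G) :
    Nat.card (a : Subgroup G) = 3 := by
  haveI := Fact.mk Nat.prime_three
  by_contra hne
  have hdich : ∀ c : Sylow 3 G, (T 3 c).card = 12 ∧ (T 9 c).card = 9 ∧ (linesAt c).card = 4 ∧
      ∀ K, IsLine K → (fs K).card = 4 := fun c =>
    (dichotomy hn c).resolve_left fun h => hne ((card_eq_card a c).trans h)
  obtain ⟨-, ⟨t, a, b, hba, ht2, hfix⟩, -⟩ := eleven_data hn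
  have hta : t • a = a := mem_fixes.mp (hfix ▸ Finset.mem_insert_self a {b})
  have htb : t • b = b := mem_fixes.mp (hfix ▸ Finset.mem_insert_of_mem (Finset.mem_singleton_self b))
  obtain ⟨-, -, h4, hF⟩ := hdich a
  -- a fixed line at `a` determines `b`
  have hline : ∀ K ∈ linesAt a, cj t K = K → typ a b = 3 ∧ (a : Subgroup G) ⊓ b = K := by
    intro K hK hKt
    rw [mem_linesAt] at hK
    let X := {c : Sylow 3 G // c ∈ (fs K).erase a}
    let σ : Equiv.Perm X := (MulAction.toPerm t : Equiv.Perm (Sylow 3 G)).subtypePerm fun c => by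
      simp only [MulAction.toPerm_apply, Finset.mem_erase, mem_fs]
      have h1 : t • c = a ↔ c = a := ⟨fun e => MulAction.injective t (e.trans hta.symm), fun e => e ▸ hta⟩
      have h2 : K ≤ ((t • c : Sylow 3 G) : Subgroup G) ↔ K ≤ (c : Subgroup G) := by
        conv_lhs => rw [← hKt]
        exact cj_le_smul
      rw [ne_eq, h1, h2]
    have hσ : σ ^ 2 ^ 1 = 1 := by
      refine Equiv.ext fun c => Subtype.ext ?_
      rw [Equiv.Perm.subtypePerm_pow]
      change ((MulAction.toPermHom G (Sylow 3 G) t) ^ 2 ^ 1) (c : Sylow 3 G) = c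
      rw [pow_one, ← map_pow, ht2, map_one]; rfl
    have hX : ¬ 2 ∣ Fintype.card X := by
      rw [Fintype.card_coe, Finset.card_erase_of_mem (mem_fs.mpr hK.2), hF K hK.1]; norm_num
    haveI := Fact.mk Nat.prime_two
    obtain ⟨⟨c, hc⟩, hfc⟩ := Equiv.Perm.exists_fixed_point_of_prime hX hσ
    rw [Finset.mem_erase, mem_fs] at hc
    have hcc : t • c = c := congrArg Subtype.val hfc
    rcases inter_fix hfix hcc with rfl | rfl
    · exact absurd rfl hc.1
    · exact line_inter hn hK.1 hK.2 hc.2 hc.1
  rcases typ_cases hn hba with htyp | htyp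
  · -- a second fixed line
    let X := {K : Subgroup G // K ∈ linesAt a}
    have hmem : ∀ K ∈ linesAt a, cj t K ∈ linesAt a := fun K hK => by
      rw [mem_linesAt] at hK ⊢
      exact ⟨hK.1.cj t, by rw [← hta, cj_le_smul]; exact hK.2⟩
    have hinv : ∀ K : Subgroup G, cj t (cj t K) = K := fun K => by
      rw [cj_mul, ← pow_two, ht2, cj_one]
    let σ : Equiv.Perm X :=
      { toFun := fun K => ⟨cj t K, hmem K K.2⟩
        invFun := fun K => ⟨cj t K, hmem K K.2⟩
        left_inv := fun K => Subtype.ext (hinv K)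
        right_inv := fun K => Subtype.ext (hinv K) }
    have hσ : σ ^ 2 ^ 1 = 1 := Equiv.ext fun K => Subtype.ext (hinv K)
    set K0 : Subgroup G := (a : Subgroup G) ⊓ b with hK0
    have hK0m : K0 ∈ linesAt a := mem_linesAt.mpr ⟨⟨a, b, htyp, rfl⟩, inf_le_left⟩
    have hK0t : σ ⟨K0, hK0m⟩ = ⟨K0, hK0m⟩ := Subtype.ext (by
      change cj t K0 = K0
      rw [hK0, ← smul_inf', hta, htb])
    haveI := Fact.mk Nat.prime_two
    obtain ⟨⟨K, hK⟩, hKt, hKne⟩ := Equiv.Perm.exists_fixed_point_of_prime' (p := 2) (n := 1)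
      (by rw [Fintype.card_coe, h4]; norm_num) hσ hK0t
    exact hKne (Subtype.ext (hline K hK (congrArg Subtype.val hKt)).2.symm)
  · set M : Subgroup G := (a : Subgroup G) ⊓ b with hM
    have h9 := fun c => (hdich c).2.1
    have haN : (a : Subgroup G) ≤ Subgroup.normalizer (M : Set G) := fun g hg =>
      mem_normalizer_of_cj (nine_normal hn h9 htyp g hg)
    have hbN : (b : Subgroup G) ≤ Subgroup.normalizer (M : Set G) := fun g hg => by
      refine mem_normalizer_of_cj ?_
      rw [hM, inf_comm]
      exact nine_normal hn h9 (by rw [typ_symm]; exact htyp) g hg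
    have hsN : stabilizer G a ≤ Subgroup.normalizer (M : Set G) := by
      intro g hg
      have hgb : typ a (g • b) = 9 := by rw [← htyp, ← typ_smul g a b, mem_stab.mp hg]
      obtain ⟨q, hq, hqb⟩ := T9_eq_orbit (h9 a) htyp hgb
      have hh : q⁻¹ * g ∈ Subgroup.normalizer (M : Set G) := by
        refine mem_normalizer_of_cj ?_
        have hqa : q⁻¹ • a = a := mem_stab.mp (le_stab a (inv_mem hq))
        rw [hM, ← smul_inf', mul_smul, mul_smul, mem_stab.mp hg, hqa, ← hqb, inv_smul_smul]
      have := mul_mem (haN hq) hh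
      rwa [mul_inv_cancel_left] at this
    have htop : Subgroup.normalizer (M : Set G) = ⊤ := (max_stab hn hsN).resolve_left fun e =>
      hba (eq_of_le_stab (a := b) (b := a) (hbN.trans e.le)).symm
    have hMn : M.Normal := Subgroup.normalizer_eq_top_iff.mp htop
    have hMbot : M = ⊥ := by
      refine (hMn.eq_bot_or_eq_top).resolve_right fun e => ?_
      have h1 : (⊤ : Subgroup G) ≤ stabilizer G a := e ▸ inf_le_left.trans (le_stab a)
      have h2 : (stabilizer G a).index = 1 := by rw [top_le_iff.mp h1, Subgroup.index_top]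
      rw [Sylow.stabilizer_eq_normalizer, ← a.card_eq_index_normalizer, hn] at h2
      omega
    have hcard : Nat.card (a : Subgroup G) = 9 := by
      rw [← card_mul_typ a b, ← hM, hMbot, Subgroup.card_bot, htyp]
    have hcomm : ∀ x y : (a : Subgroup G), x * y = y * x :=
      IsPGroup.commutative_of_card_eq_prime_sq (p := 3) (G := (a : Subgroup G)) (by rw [hcard]; norm_num)
    have hinvert : ∀ c ∈ (a : Subgroup G), t * c * t⁻¹ = c⁻¹ := by
      intro c hc
      have hc' : t * c * t⁻¹ ∈ (a : Subgroup G) := by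
        rw [← hta, mem_smul]; simpa [mul_assoc] using hc
      set x := c * (t * c * t⁻¹) with hx
      have hxa : x ∈ (a : Subgroup G) := mul_mem hc hc'
      have htx : t * x = x * t := by
        have h1 : t * (t * c * t⁻¹) * t⁻¹ = c := by
          have htt : t * t = 1 := by rw [← pow_two]; exact ht2
          rw [show t * (t * c * t⁻¹) * t⁻¹ = (t * t) * c * (t * t)⁻¹ by group, htt, one_mul, inv_one, mul_one]
        have h2 : t * x * t⁻¹ = x := by
          rw [hx, show t * (c * (t * c * t⁻¹)) * t⁻¹ = (t * c * t⁻¹) * (t * (t * c * t⁻¹) * t⁻¹) by group, h1]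
          exact congrArg Subtype.val (hcomm ⟨_, hc'⟩ ⟨c, hc⟩)
        exact mul_inv_eq_iff_eq_mul.mp h2
      have hxb : x • b = b := by
        rcases inter_fix hfix (show t • x • b = x • b by rw [← mul_smul, htx, mul_smul, htb]) with e | e
        · exact absurd (MulAction.injective x (e.trans (mem_stab.mp (le_stab a hxa)).symm)) hba
        · exact e
      have hx1 : x = 1 := by
        obtain ⟨k, hk⟩ := a.isPGroup' ⟨x, hxa⟩
        have : x ∈ M := ⟨hxa, mem_of_pow_mem hxb (k := k) (congrArg Subtype.val hk)⟩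
        rwa [hMbot, Subgroup.mem_bot] at this
      exact eq_inv_of_mul_eq_one_right hx1
    obtain ⟨K, hK⟩ : (linesAt a).Nonempty := Finset.card_pos.mp (by rw [h4]; norm_num)
    have hKa := (mem_linesAt.mp hK).2
    have hKt : cj t K = K := by
      refine Subgroup.eq_of_le_of_card_ge ?_ (card_cj t K).ge
      rintro _ ⟨c, hc, rfl⟩
      change t * c * t⁻¹ ∈ K
      rw [hinvert c (hKa hc)]
      exact inv_mem hc
    have := (hline K hK hKt).1
    omega

end

end Cfsg.Agent.H90.Sylow22
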